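import Mathlib

set_option autoImplicit false

namespace Cfsg.Agent.Lib.Helper63

theorem two_ne_zero_zmod (p : ℕ) [Fact p.Prime] (hp : p ≠ 2) : (2 : ZMod p) ≠ 0 := by
  intro h
  have h2 : ((2 : ℕ) : ZMod p) = 0 := by exact_mod_cast h
  rw [ZMod.natCast_eq_zero_iff] at h2
  exact hp ((Nat.prime_dvd_prime_iff_eq Fact.out Nat.prime_two).mp h2)

/-- A permutation of an `F_p`-space (`p` odd) agreeing on every triple with an affine map
is affine. -/
theorem affine_of_triples (p : ℕ) [Fact p.Prime] (hp : p ≠ 2) {V : Type*} [AddCommGroup V]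
    [Module (ZMod p) V] (σ : Equiv.Perm V)
    (h : ∀ t : Fin 3 → V, ∃ (A : V ≃ₗ[ZMod p] V) (b : V), ∀ i, σ (t i) = A (t i) + b) :
    ∃ (A : V ≃ₗ[ZMod p] V) (b : V), ∀ x, σ x = A x + b := by
  have key1 : ∀ a m : V, σ (m + m - a) = σ m + σ m - σ a := by
    intro a m
    obtain ⟨A, b, hA⟩ := h ![a, m, m + m - a]
    have h0 := hA 0
    have h1 := hA 1
    have h2 := hA 2
    simp only [Matrix.cons_val_zero, Matrix.cons_val_one, Matrix.cons_val] at h0 h1 h2
    rw [h2, h1, h0, map_sub, map_add]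
    abel
  have hdouble : ∀ m : V, σ (m + m) = σ m + σ m - σ 0 := by
    intro m
    have := key1 0 m
    rwa [sub_zero] at this
  have hadd : ∀ a b : V, (σ (a + b) - σ 0) = (σ a - σ 0) + (σ b - σ 0) := by
    intro a b
    have h2 := two_ne_zero_zmod p hp
    have hm : ((2 : ZMod p)⁻¹ • (a + b)) + ((2 : ZMod p)⁻¹ • (a + b)) = a + b := by
      rw [← add_smul, ← two_mul, mul_inv_cancel₀ h2, one_smul]
    have e1 := key1 a ((2 : ZMod p)⁻¹ • (a + b))
    have e2 := hdouble ((2 : ZMod p)⁻¹ • (a + b))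
    rw [hm] at e1 e2
    rw [add_sub_cancel_left] at e1
    rw [e2]
    have e3 : σ ((2 : ZMod p)⁻¹ • (a + b)) + σ ((2 : ZMod p)⁻¹ • (a + b)) = σ a + σ b := by
      rw [e1]; abel
    rw [e3]; abel
  let τ : V →+ V := AddMonoidHom.mk' (fun x => σ x - σ 0) hadd
  have hbij : Function.Bijective (τ.toZModLinearMap p) := by
    constructor
    · intro x y hxy
      have : σ x - σ 0 = σ y - σ 0 := hxy
      exact σ.injective (sub_left_injective this)
    · intro y
      refine ⟨σ.symm (y + σ 0), ?_⟩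
      show σ (σ.symm (y + σ 0)) - σ 0 = y
      simp
  refine ⟨LinearEquiv.ofBijective (τ.toZModLinearMap p) hbij, σ 0, fun x => ?_⟩
  show σ x = (σ x - σ 0) + σ 0
  abel

end Cfsg.Agent.Lib.Helper63
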