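import Cfsg.Agent.Lib.Helper63.Ito7

set_option autoImplicit false

namespace Cfsg.Agent.Lib.Helper63

open Cfsg MulAction

/-- a nontrivial solvable normal subgroup yields a nontrivial abelian normal subgroup -/
theorem exists_abelian_normal_of_solvable_normal {G : Type*} [Group G] (K : Subgroup G)
    [hKn : K.Normal] (hK : K ≠ ⊥) (h : Group.IsSolvable K) :
    ∃ A : Subgroup G, A.Normal ∧ A ≠ ⊥ ∧ ∀ x ∈ A, ∀ y ∈ A, x * y = y * x := by
  classical
  have hnt : Nontrivial K := (Subgroup.nontrivial_iff_ne_bot K).2 hK
  have hex := h.solvable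
  have hn0 : Nat.find hex ≠ 0 := by
    intro h0
    have h1 := Nat.find_spec hex
    rw [h0, derivedSeries_zero] at h1
    exact top_ne_bot h1
  obtain ⟨m, hm⟩ := Nat.exists_eq_succ_of_ne_zero hn0
  refine ⟨(derivedSeries K m).map K.subtype, ConjAct.normal_of_characteristic_of_normal, ?_, ?_⟩
  · intro h1
    rw [Subgroup.map_eq_bot_iff_of_injective _ K.subtype_injective] at h1
    have := Nat.find_min' hex h1
    omega
  · rintro _ ⟨x, hx, rfl⟩ _ ⟨y, hy, rfl⟩
    have h1 := Nat.find_spec hex
    rw [hm, Nat.succ_eq_add_one, derivedSeries_succ,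
      Subgroup.commutator_eq_bot_iff_le_centralizer] at h1
    have h2 := ((Subgroup.mem_centralizer_iff.1 (h1 hx)) y hy).symm
    have h3 := congrArg K.subtype h2
    simpa using h3

section deg

variable {α : Type*} [Fintype α] [DecidableEq α] {p : ℕ} [Fact p.Prime]

theorem centralizer_sylow_le (hα : Fintype.card α = p) (G : Subgroup (Equiv.Perm α))
    [IsPretransitive G α] (P : Sylow p G) :
    Subgroup.centralizer ((P : Subgroup G) : Set G) ≤ (P : Subgroup G) := by
  have hp : p.Prime := Fact.out
  have hP := card_sylow_eq hα G P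
  obtain ⟨c, hc⟩ := exists_prime_orderOf_dvd_card' (G := P) p (by rw [hP])
  have hcG : orderOf (c : G) = p := by rw [Subgroup.orderOf_coe, hc]
  have hc' : orderOf ((c : G) : Equiv.Perm α) = p := by rw [Subgroup.orderOf_coe, hcG]
  obtain ⟨e, he⟩ := exists_equiv_zmod hα ((c : G) : Equiv.Perm α) hc'
  have hce : ∀ j, (c : G) • e j = e (j + 1) := fun j => (he j).symm
  intro σ hσ
  have hcomm : σ * (c : G) = (c : G) * σ := ((Subgroup.mem_centralizer_iff.1 hσ) c c.2).symm
  have htl := translation_of_commute e (c : G) σ hce hcomm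
  have : σ = (c : G) ^ (e.symm (σ • e 0)).val := by
    apply eq_of_smul_eq G e
    intro j
    rw [htl, smul_pow_val e (c : G) hce]
  rw [this]
  exact Subgroup.pow_mem _ c.2 _

theorem centralizer_sylow_eq (hα : Fintype.card α = p) (G : Subgroup (Equiv.Perm α))
    [IsPretransitive G α] (P : Sylow p G) :
    Subgroup.centralizer ((P : Subgroup G) : Set G) = (P : Subgroup G) := by
  apply le_antisymm (centralizer_sylow_le hα G P)
  have hP := card_sylow_eq hα G P
  have hcyc : IsCyclic P := isCyclic_of_prime_card hP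
  let _ := IsCyclic.commGroup (α := P)
  intro x hx
  rw [Subgroup.mem_centralizer_iff]
  intro y hy
  have := mul_comm (⟨y, hy⟩ : P) ⟨x, hx⟩
  exact congrArg Subtype.val this

theorem card_normalizer_sylow (hα : Fintype.card α = p) (G : Subgroup (Equiv.Perm α))
    [IsPretransitive G α] (P : Sylow p G) :
    ∃ d, d ∣ p - 1 ∧ Nat.card (Subgroup.normalizer ((P : Subgroup G) : Set G)) = p * d := by
  have hp : p.Prime := Fact.out
  have hP := card_sylow_eq hα G P
  have hcyc : IsCyclic P := isCyclic_of_prime_card hP
  have hker := Subgroup.normalizerMonoidHom_ker (H := (P : Subgroup G))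
  rw [centralizer_sylow_eq hα G P] at hker
  have h1 := Subgroup.card_mul_index (P : Subgroup G).normalizerMonoidHom.ker
  rw [Subgroup.index_ker, hker,
    Nat.card_congr (Subgroup.subgroupOfEquivOfLe (Subgroup.le_normalizer)).toEquiv, hP] at h1
  refine ⟨_, ?_, h1.symm⟩
  have h2 := Subgroup.card_subgroup_dvd_card (P : Subgroup G).normalizerMonoidHom.range
  rw [IsCyclic.card_mulAut, hP, Nat.totient_prime hp] at h2
  exact h2

theorem sylow_normal_of_abelian_normal (hα : Fintype.card α = p) (G : Subgroup (Equiv.Perm α))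
    [IsPretransitive G α] (A : Subgroup G) (hAn : A.Normal) (hA0 : A ≠ ⊥)
    (hAab : ∀ x ∈ A, ∀ y ∈ A, x * y = y * x) (P : Sylow p G) :
    (P : Subgroup G).Normal := by
  have hp : p.Prime := Fact.out
  have hcardα : Nat.card α = p := by rw [Nat.card_eq_fintype_card, hα]
  have hprim : IsPreprimitive G α := IsPreprimitive.of_prime_card (by rw [hcardα]; exact hp)
  have hntα : Nontrivial α := Fintype.one_lt_card_iff_nontrivial.mp (by rw [hα]; exact hp.one_lt)
  have hfix : fixedPoints A α ≠ Set.univ := by
    intro h1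
    apply hA0
    rw [eq_bot_iff]
    intro x hx
    rw [Subgroup.mem_bot]
    apply Subtype.ext
    ext a
    have h2 : a ∈ fixedPoints A α := by rw [h1]; trivial
    exact h2 ⟨x, hx⟩
  have htr : IsPretransitive A α := IsQuasiPreprimitive.isPretransitive_of_normal hfix
  have hpA : p ∣ Nat.card A := by
    obtain ⟨a⟩ : Nonempty α := inferInstance
    have h1 := index_stabilizer_of_transitive A a
    rw [hcardα] at h1
    rw [← h1]
    exact Subgroup.index_dvd_card _
  obtain ⟨a, ha⟩ := exists_prime_orderOf_dvd_card' p hpA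
  have haG : orderOf (a : G) = p := by rw [Subgroup.orderOf_coe, ha]
  have ha' : orderOf ((a : G) : Equiv.Perm α) = p := by rw [Subgroup.orderOf_coe, haG]
  obtain ⟨e, he⟩ := exists_equiv_zmod hα ((a : G) : Equiv.Perm α) ha'
  have hc : ∀ j, (a : G) • e j = e (j + 1) := fun j => (he j).symm
  have hQn : (Subgroup.zpowers (a : G)).Normal := by
    refine ⟨fun y hy k => ?_⟩
    obtain ⟨z, rfl⟩ := Subgroup.mem_zpowers_iff.1 hy
    rw [← conj_zpow]
    apply Subgroup.zpow_mem
    have hσA : k * (a : G) * k⁻¹ ∈ A := hAn.conj_mem _ a.2 _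
    have hcomm : (k * (a : G) * k⁻¹) * (a : G) = (a : G) * (k * (a : G) * k⁻¹) :=
      hAab _ hσA _ a.2
    have htl := translation_of_commute e (a : G) _ hc hcomm
    have : k * (a : G) * k⁻¹ = (a : G) ^ (e.symm ((k * (a : G) * k⁻¹) • e 0)).val := by
      apply eq_of_smul_eq G e
      intro j
      rw [htl, smul_pow_val e (a : G) hc]
    rw [this]
    exact Subgroup.pow_mem _ (Subgroup.mem_zpowers _) _
  have hQcard : Nat.card (Subgroup.zpowers (a : G)) = p := by rw [Nat.card_zpowers, haG]
  have hQp : IsPGroup p (Subgroup.zpowers (a : G)) := IsPGroup.of_card (n := 1) (by rw [hQcard, pow_one])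
  obtain ⟨P', hP'⟩ := hQp.exists_le_sylow
  have hP'card := card_sylow_eq hα G P'
  have hP'eq : Subgroup.zpowers (a : G) = (P' : Subgroup G) :=
    Subgroup.eq_of_le_of_card_ge hP' (by rw [hP'card, hQcard])
  have hP'n : (P' : Subgroup G).Normal := hP'eq ▸ hQn
  have := Sylow.unique_of_normal P' hP'n
  rw [Subsingleton.elim P P']
  exact hP'n

omit [DecidableEq α] in
/-- a nontrivial normal subgroup of a transitive group of prime degree is transitive -/
theorem isPretransitive_of_normal_ne_bot (hα : Fintype.card α = p) (G : Subgroup (Equiv.Perm α))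
    [IsPretransitive G α] (K : Subgroup G) [hKn : K.Normal] (hK : K ≠ ⊥) :
    IsPretransitive K α := by
  have hp : p.Prime := Fact.out
  have hcardα : Nat.card α = p := by rw [Nat.card_eq_fintype_card, hα]
  have hprim : IsPreprimitive G α := IsPreprimitive.of_prime_card (by rw [hcardα]; exact hp)
  have hfix : fixedPoints K α ≠ Set.univ := by
    intro h1
    apply hK
    rw [eq_bot_iff]
    intro x hx
    rw [Subgroup.mem_bot]
    apply Subtype.ext
    ext a
    have h2 : a ∈ fixedPoints K α := by rw [h1]; trivial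
    exact h2 ⟨x, hx⟩
  exact IsQuasiPreprimitive.isPretransitive_of_normal hfix

/-- Burnside: the normaliser of a Sylow `p`-subgroup is bigger than it unless `G` has order `p` -/
theorem card_eq_of_normalizer_eq (hα : Fintype.card α = p) (G : Subgroup (Equiv.Perm α))
    [IsPretransitive G α] (P : Sylow p G)
    (hN : Nat.card (Subgroup.normalizer ((P : Subgroup G) : Set G)) = p) : Nat.card G = p := by
  have hp : p.Prime := Fact.out
  have hcardα : Nat.card α = p := by rw [Nat.card_eq_fintype_card, hα]
  have hP := card_sylow_eq hα G P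
  have hNP : Subgroup.normalizer ((P : Subgroup G) : Set G) = (P : Subgroup G) :=
    (Subgroup.eq_of_le_of_card_ge Subgroup.le_normalizer (by rw [hN, hP])).symm
  have hle : Subgroup.normalizer ((P : Subgroup G) : Set G) ≤
      Subgroup.centralizer ((P : Subgroup G) : Set G) := by
    rw [centralizer_sylow_eq hα G P, hNP]
  have hcompl := MonoidHom.ker_transferSylow_isComplement' P hle
  have hcard := hcompl.card_mul_card
  by_cases hK : (MonoidHom.transferSylow P hle).ker = ⊥
  · rw [hK, Subgroup.card_bot, one_mul, hP] at hcard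
    exact hcard.symm
  · exfalso
    have htr := isPretransitive_of_normal_ne_bot hα G _ hK
    have hpK : p ∣ Nat.card (MonoidHom.transferSylow P hle).ker := by
      have hne : Nonempty α := by
        rw [← Fintype.card_pos_iff, hα]; exact hp.pos
      obtain ⟨a⟩ := hne
      have h1 := index_stabilizer_of_transitive (MonoidHom.transferSylow P hle).ker a
      rw [hcardα] at h1
      have h2 := Subgroup.index_dvd_card (stabilizer (MonoidHom.transferSylow P hle).ker a)
      rwa [h1] at h2
    apply not_sq_dvd_card hα G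
    rw [← hcard, hP, sq]
    exact Nat.mul_dvd_mul_right hpK p

end deg

end Cfsg.Agent.Lib.Helper63
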