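import Mathlib
import Cfsg.Prelude.Def_Perm
import Cfsg.Agent.Lib.Helper63.Neumann1

set_option autoImplicit false

namespace Cfsg.Agent.Lib.Helper63

open MulAction
open scoped Pointwise

section heart

variable {G : Type*} [Group G] {K : Type*} [Field K] {Ω : Type*} [Fintype Ω] [DecidableEq Ω]
  [MulAction G Ω] {V : Type*} [AddCommGroup V] [Module K V] {σ : Representation K G V}

/-- the kernel of an intertwining map on the sum-zero functions, inside the permutation module -/
noncomputable def kerSub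
    (f : Representation.IntertwiningMap (Cfsg.permSumZero K G Ω).toRepresentation σ) :
    Subrepresentation (Cfsg.permRep K G Ω) where
  toSubmodule := (LinearMap.ker f.toLinearMap).map (Cfsg.permSumZero K G Ω).toSubmodule.subtype
  apply_mem_toSubmodule g v hv := by
    obtain ⟨w, hw, rfl⟩ := Submodule.mem_map.1 hv
    refine Submodule.mem_map.2 ⟨(Cfsg.permSumZero K G Ω).toRepresentation g w, ?_, rfl⟩
    rw [LinearMap.mem_ker] at hw ⊢
    rw [Representation.IntertwiningMap.toLinearMap_apply] at hw ⊢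
    rw [f.isIntertwining, hw, map_zero]

theorem mem_kerSub
    (f : Representation.IntertwiningMap (Cfsg.permSumZero K G Ω).toRepresentation σ)
    (v : (Cfsg.permSumZero K G Ω).toSubmodule) :
    (v : Ω → K) ∈ (kerSub f).toSubmodule ↔ f v = 0 := by
  constructor
  · intro hv
    obtain ⟨w, hw, hwv⟩ := Submodule.mem_map.1 hv
    have : w = v := Subtype.ext hwv
    rw [← this]
    exact hw
  · intro hv
    exact Submodule.mem_map.2 ⟨v, hv, rfl⟩

theorem kerSub_le
    (f : Representation.IntertwiningMap (Cfsg.permSumZero K G Ω).toRepresentation σ) :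
    (kerSub f).toSubmodule ≤ (Cfsg.permSumZero K G Ω).toSubmodule := by
  intro v hv
  obtain ⟨w, _, rfl⟩ := Submodule.mem_map.1 hv
  exact w.2

end heart

section main

variable {p : ℕ} [Fact p.Prime] {α : Type*} [Fintype α] [DecidableEq α]
  {G : Type*} [Group G] [MulAction G α]

theorem heart_hom_pairs_eq_zero (hα : Fintype.card α = p) (hp2 : p ≠ 2)
    (hirr : ∀ W : Subrepresentation (Cfsg.permRep (ZMod p) G α),
      (Cfsg.permConstants (ZMod p) G α).toSubmodule ≤ W.toSubmodule →
      W.toSubmodule ≤ (Cfsg.permSumZero (ZMod p) G α).toSubmodule →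
      W = Cfsg.permConstants (ZMod p) G α ∨ W = Cfsg.permSumZero (ZMod p) G α)
    (e : ZMod p ≃ α) (c t : G) (b : ZMod p) (hc : ∀ j, c • e j = e (j + 1))
    (ht : ∀ j, t • e j = e (b - j))
    (f : Representation.IntertwiningMap (Cfsg.permSumZero (ZMod p) G α).toRepresentation
      (Cfsg.permRep (ZMod p) G (Set.powersetCard α 2)))
    (hf : ∀ v : (Cfsg.permSumZero (ZMod p) G α).toSubmodule,
        (v : α → ZMod p) ∈ (Cfsg.permConstants (ZMod p) G α).toSubmodule → f v = 0) : f = 0 := by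
  have h2ne : (2 : ZMod p) ≠ 0 := by
    intro h
    have h3 : ((2 : ℕ) : ZMod p) = 0 := by exact_mod_cast h
    rw [ZMod.natCast_eq_zero_iff] at h3
    exact hp2 ((Nat.prime_dvd_prime_iff_eq Fact.out Nat.prime_two).mp h3)
  have hconst : (Cfsg.permConstants (ZMod p) G α).toSubmodule ≤
      (Cfsg.permSumZero (ZMod p) G α).toSubmodule := by
    intro v hv
    obtain ⟨r, rfl⟩ := Submodule.mem_span_singleton.1 hv
    change ∑ x : α, (r • (fun _ => (1 : ZMod p))) x = 0
    simp [hα]
  -- the linear function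
  set ℓ : α → ZMod p := fun a => 2 * e.symm a - b with hℓ
  have hℓt : ∀ a, ℓ (t • a) = - ℓ a := by
    intro a
    obtain ⟨j, rfl⟩ := e.surjective a
    simp only [hℓ, ht, Equiv.symm_apply_apply]
    ring
  have hℓc : ∀ a, ℓ (c • a) = ℓ a + 2 := by
    intro a
    obtain ⟨j, rfl⟩ := e.surjective a
    simp only [hℓ, hc, Equiv.symm_apply_apply]
    ring
  have hℓ0 : ℓ ∈ (Cfsg.permSumZero (ZMod p) G α).toSubmodule := by
    change ∑ x, ℓ x = 0
    have h1 : ∑ x, ℓ x = ∑ x, ℓ (t • x) := (Equiv.sum_comp (MulAction.toPerm t) ℓ).symm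
    simp only [hℓt, Finset.sum_neg_distrib] at h1
    have h2 : 2 * ∑ x, ℓ x = 0 := by linear_combination h1
    exact (mul_eq_zero.1 h2).resolve_left h2ne
  set F := f ⟨ℓ, hℓ0⟩ with hF
  have hFt : ∀ s, F (t • s) = - F s := by
    intro s
    have h1 := f.isIntertwining _ _ t⁻¹ ⟨ℓ, hℓ0⟩
    have h2 : (Cfsg.permSumZero (ZMod p) G α).toRepresentation t⁻¹ ⟨ℓ, hℓ0⟩ = - ⟨ℓ, hℓ0⟩ := by
      apply Subtype.ext
      funext a
      change ℓ (t⁻¹⁻¹ • a) = - ℓ a
      rw [inv_inv, hℓt]
    rw [h2, map_neg] at h1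
    have h3 := congrFun h1 s
    change - F s = F (t⁻¹⁻¹ • s) at h3
    rw [inv_inv] at h3
    exact h3.symm
  have hFc : ∀ s, F (c • s) = F s := by
    intro s
    have h1 := f.isIntertwining _ _ c⁻¹ ⟨ℓ, hℓ0⟩
    have hcm : (fun _ => (2 : ZMod p)) ∈ (Cfsg.permConstants (ZMod p) G α).toSubmodule :=
      Submodule.mem_span_singleton.2 ⟨2, by funext a; simp⟩
    have h2 : (Cfsg.permSumZero (ZMod p) G α).toRepresentation c⁻¹ ⟨ℓ, hℓ0⟩ =
        ⟨ℓ, hℓ0⟩ + ⟨fun _ => 2, hconst hcm⟩ := by
      apply Subtype.ext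
      funext a
      change ℓ (c⁻¹⁻¹ • a) = ℓ a + 2
      rw [inv_inv, hℓc]
    rw [h2, map_add, hf ⟨fun _ => 2, hconst hcm⟩ hcm, add_zero] at h1
    have h3 := congrFun h1 s
    change F s = F (c⁻¹⁻¹ • s) at h3
    rw [inv_inv] at h3
    exact h3.symm
  have hFcn : ∀ (n : ℕ) s, F (c ^ n • s) = F s := by
    intro n
    induction n with
    | zero => intro s; rw [pow_zero, one_smul]
    | succ n ih => intro s; rw [pow_succ, mul_smul, ih, hFc]
  have hts : ∀ s : Set.powersetCard α 2, ∃ n : ℕ, t • s = c ^ n • s := by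
    intro s
    obtain ⟨x, y, hxy, hs⟩ := Finset.card_eq_two.1 s.2
    obtain ⟨i, rfl⟩ := e.surjective x
    obtain ⟨k, rfl⟩ := e.surjective y
    refine ⟨(b - i - k).val, ?_⟩
    apply Subtype.ext
    rw [Set.powersetCard.coe_smul, Set.powersetCard.coe_smul]
    change t • (s.1 : Finset α) = c ^ _ • (s.1 : Finset α)
    rw [hs]
    simp only [Finset.smul_finset_insert, Finset.smul_finset_singleton, ht, smul_pow_val e c hc]
    rw [Finset.pair_comm]
    congr 2 <;> congr 1 <;> ring
  have hF0 : F = 0 := by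
    funext s
    obtain ⟨n, hn⟩ := hts s
    have h1 := hFt s
    rw [hn, hFcn] at h1
    have h2 : 2 * F s = 0 := by linear_combination h1
    exact (mul_eq_zero.1 h2).resolve_left h2ne
  have hℓW : ℓ ∈ (kerSub f).toSubmodule := (mem_kerSub f ⟨ℓ, hℓ0⟩).2 hF0
  rcases hirr (kerSub f) (fun v hv => (mem_kerSub f ⟨v, hconst hv⟩).2 (hf ⟨v, hconst hv⟩ hv))
    (kerSub_le f) with hW | hW
  · exfalso
    rw [hW] at hℓW
    obtain ⟨r, hr⟩ := Submodule.mem_span_singleton.1 hℓW
    have h0 := congrFun hr (e 0)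
    have h1 := congrFun hr (e 1)
    simp only [hℓ, Pi.smul_apply, smul_eq_mul, mul_one, Equiv.symm_apply_apply] at h0 h1
    apply h2ne
    linear_combination h0 - h1
  · apply DFunLike.ext
    intro v
    have : (v : α → ZMod p) ∈ (kerSub f).toSubmodule := by
      rw [hW]
      exact v.2
    exact (mem_kerSub f v).1 this

end main

end Cfsg.Agent.Lib.Helper63
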