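import Mathlib
import Cfsg.Prelude.Def_Perm

set_option autoImplicit false

namespace Cfsg.Agent.Lib.Helper63

open MulAction Set.powersetCard

section kappa

variable {G : Type*} [Group G] {K : Type*} [Field K] {Ω : Type*} [Fintype Ω] [DecidableEq Ω]
  [MulAction G Ω]

/-- the linear map with kernel `κ` -/
noncomputable def kapMap (κ : Ω → Set.powersetCard Ω 2 → K) :
    (Ω → K) →ₗ[K] (Set.powersetCard Ω 2 → K) where
  toFun f s := ∑ a, κ a s * f a
  map_add' f₁ f₂ := by
    funext s
    simp [mul_add, Finset.sum_add_distrib]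
  map_smul' c f := by
    funext s
    simp only [Pi.smul_apply, smul_eq_mul, RingHom.id_apply, Finset.mul_sum]
    exact Finset.sum_congr rfl fun a _ => by ring

theorem kapMap_apply (κ : Ω → Set.powersetCard Ω 2 → K) (f : Ω → K) (s : Set.powersetCard Ω 2) :
    kapMap κ f s = ∑ a, κ a s * f a := rfl

theorem kappa_const
    (h : ∀ f : Representation.IntertwiningMap (Cfsg.permSumZero K G Ω).toRepresentation
      (Cfsg.permRep K G (Set.powersetCard Ω 2)),
      (∀ v : (Cfsg.permSumZero K G Ω).toSubmodule,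
        (v : Ω → K) ∈ (Cfsg.permConstants K G Ω).toSubmodule → f v = 0) → f = 0)
    (κ : Ω → Set.powersetCard Ω 2 → K) (hinv : ∀ (g : G) a s, κ (g • a) (g • s) = κ a s)
    (hsum : ∀ s, ∑ a, κ a s = 0) : ∀ a a' s, κ a s = κ a' s := by
  have hF := h (LinearMap.intertwiningMap_of_isIntertwiningMap
    (ρ := (Cfsg.permSumZero K G Ω).toRepresentation)
    (σ := Cfsg.permRep K G (Set.powersetCard Ω 2))
    (f := (kapMap κ) ∘ₗ (Cfsg.permSumZero K G Ω).toSubmodule.subtype) (by
      intro g v
      funext s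
      change ∑ a, κ a s * (v : Ω → K) (g⁻¹ • a) = ∑ a, κ a (g⁻¹ • s) * (v : Ω → K) a
      rw [← Equiv.sum_comp (MulAction.toPerm g)]
      refine Finset.sum_congr rfl fun a _ => ?_
      rw [MulAction.toPerm_apply, inv_smul_smul]
      congr 1
      conv_lhs => rw [← smul_inv_smul g s]
      exact hinv g a _)) (by
      intro v hv
      obtain ⟨c, hc⟩ := Submodule.mem_span_singleton.1 hv
      funext s
      change ∑ a, κ a s * (v : Ω → K) a = 0
      rw [← hc]
      simp only [Pi.smul_apply, smul_eq_mul, mul_one]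
      rw [← Finset.sum_mul, hsum, zero_mul])
  intro a a' s
  have hmem : (Pi.single a 1 - Pi.single a' 1 : Ω → K) ∈ (Cfsg.permSumZero K G Ω).toSubmodule := by
    change ∑ x, (Pi.single a 1 - Pi.single a' 1 : Ω → K) x = 0
    simp only [Pi.sub_apply, Finset.sum_sub_distrib]
    rw [Finset.sum_pi_single' a, Finset.sum_pi_single' a']
    simp
  have h1 := congrArg (fun F : Representation.IntertwiningMap
    (Cfsg.permSumZero K G Ω).toRepresentation (Cfsg.permRep K G (Set.powersetCard Ω 2)) =>
      F ⟨_, hmem⟩ s) hF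
  change ∑ x, κ x s * (Pi.single a 1 - Pi.single a' 1 : Ω → K) x = 0 at h1
  simp only [Pi.sub_apply, mul_sub, Finset.sum_sub_distrib, Pi.single_apply, mul_ite, mul_one,
    mul_zero, Finset.sum_ite_eq', Finset.mem_univ, if_true] at h1
  exact sub_eq_zero.1 h1

theorem mem_smul_pair_iff (g : G) (a : Ω) (s : Set.powersetCard Ω 2) :
    g • a ∈ g • s ↔ a ∈ s := by
  rw [← Set.powersetCard.mem_coe_iff, Set.powersetCard.coe_smul,
    Finset.smul_mem_smul_finset_iff, Set.powersetCard.mem_coe_iff]

/-- characteristic two: at most two points -/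
theorem card_le_two_of_char_two [CharP K 2]
    (h : ∀ f : Representation.IntertwiningMap (Cfsg.permSumZero K G Ω).toRepresentation
      (Cfsg.permRep K G (Set.powersetCard Ω 2)),
      (∀ v : (Cfsg.permSumZero K G Ω).toSubmodule,
        (v : Ω → K) ∈ (Cfsg.permConstants K G Ω).toSubmodule → f v = 0) → f = 0)
    (a b c : Ω) (hab : a ≠ b) (hac : a ≠ c) (hbc : b ≠ c) : False := by
  classical
  have key := kappa_const (G := G) h (fun a s => if a ∈ s then 1 else 0)
    (by
      intro g a s
      simp only [mem_smul_pair_iff])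
    (by
      intro s
      rw [Finset.sum_ite, Finset.sum_const_zero, add_zero, Finset.sum_const, nsmul_eq_mul, mul_one]
      have : (Finset.univ.filter fun x => x ∈ s) = (s : Finset Ω) := by
        ext x
        simp [Set.powersetCard.mem_coe_iff]
      rw [this, Set.powersetCard.card_eq]
      exact CharP.cast_eq_zero K 2)
  have h1 := key a c ⟨{a, b}, by simp [Finset.card_pair hab]⟩
  have ha : a ∈ (⟨{a, b}, by simp [Finset.card_pair hab]⟩ : Set.powersetCard Ω 2) := by
    rw [← Set.powersetCard.mem_coe_iff]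
    simp
  have hc : c ∉ (⟨{a, b}, by simp [Finset.card_pair hab]⟩ : Set.powersetCard Ω 2) := by
    rw [← Set.powersetCard.mem_coe_iff]
    simp [hac.symm, hbc.symm]
  simp only [if_pos ha, if_neg hc] at h1
  exact one_ne_zero h1

/-- odd characteristic: flag transitivity -/
theorem flag_transitive (h2ne : (2 : K) ≠ 0)
    (h : ∀ f : Representation.IntertwiningMap (Cfsg.permSumZero K G Ω).toRepresentation
      (Cfsg.permRep K G (Set.powersetCard Ω 2)),
      (∀ v : (Cfsg.permSumZero K G Ω).toSubmodule,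
        (v : Ω → K) ∈ (Cfsg.permConstants K G Ω).toSubmodule → f v = 0) → f = 0)
    (s : Set.powersetCard Ω 2) (a a' : Ω) (ha : a ∉ s) (ha' : a' ∉ s) :
    ∃ g : G, g • a = a' ∧ g • s = s := by
  classical
  have hO : ∀ (g : G) x t, (∃ k : G, k • a = g • x ∧ k • s = g • t) ↔
      (∃ k : G, k • a = x ∧ k • s = t) := by
    intro g x t
    constructor
    · rintro ⟨k, h1, h2⟩
      exact ⟨g⁻¹ * k, by rw [mul_smul, h1, inv_smul_smul], by rw [mul_smul, h2, inv_smul_smul]⟩
    · rintro ⟨k, h1, h2⟩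
      exact ⟨g * k, by rw [mul_smul, h1], by rw [mul_smul, h2]⟩
  have hOn : ∀ x t, (∃ k : G, k • a = x ∧ k • s = t) → x ∉ t := by
    rintro x t ⟨k, rfl, rfl⟩
    rwa [mem_smul_pair_iff]
  set N : Set.powersetCard Ω 2 → ℕ := fun t =>
    (Finset.univ.filter fun x => ∃ k : G, k • a = x ∧ k • s = t).card with hN
  have hNinv : ∀ (g : G) t, N (g • t) = N t := by
    intro g t
    rw [hN]
    symm
    refine Finset.card_bij (fun x _ => g • x) ?_ ?_ ?_
    · intro x hx
      simp only [Finset.mem_filter, Finset.mem_univ, true_and] at hx ⊢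
      exact (hO g x t).2 hx
    · intro x _ y _ hxy
      exact smul_left_cancel g hxy
    · intro y hy
      simp only [Finset.mem_filter, Finset.mem_univ, true_and] at hy
      refine ⟨g⁻¹ • y, ?_, smul_inv_smul g y⟩
      simp only [Finset.mem_filter, Finset.mem_univ, true_and]
      rw [← hO g, smul_inv_smul]
      exact hy
  have key := kappa_const (G := G) h
    (fun x t => 2 * (if ∃ k : G, k • a = x ∧ k • s = t then 1 else 0)
      - (N t : K) * (if x ∈ t then 1 else 0))
    (by
      intro g x t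
      simp only [mem_smul_pair_iff, hO, hNinv])
    (by
      intro t
      rw [Finset.sum_sub_distrib, ← Finset.mul_sum, ← Finset.mul_sum]
      rw [Finset.sum_ite, Finset.sum_const_zero, add_zero, Finset.sum_const, nsmul_eq_mul, mul_one]
      rw [Finset.sum_ite, Finset.sum_const_zero, add_zero, Finset.sum_const, nsmul_eq_mul, mul_one]
      have : (Finset.univ.filter fun x => x ∈ t) = (t : Finset Ω) := by
        ext x
        simp [Set.powersetCard.mem_coe_iff]
      rw [this, Set.powersetCard.card_eq]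
      push_cast
      ring)
  have h1 := key a a' s
  have hmem : ∃ k : G, k • a = a ∧ k • s = s := ⟨1, one_smul _ _, one_smul _ _⟩
  simp only [if_pos hmem, if_neg ha, if_neg ha', mul_zero, sub_zero, mul_one] at h1
  by_contra hcon
  rw [if_neg hcon, mul_zero] at h1
  exact h2ne h1

end kappa

section assembly

variable {G : Type*} [Group G] [Finite G] {Ω : Type*} [Fintype Ω] [DecidableEq Ω]
  [MulAction G Ω] [FaithfulSMul G Ω]

theorem flag_points
    (hflag : ∀ (s : Set.powersetCard Ω 2) (a a' : Ω), a ∉ s → a' ∉ s →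
      ∃ g : G, g • a = a' ∧ g • s = s)
    (a a' b c : Ω) (hbc : b ≠ c) (hab : a ≠ b) (hac : a ≠ c) (hab' : a' ≠ b) (hac' : a' ≠ c) :
    ∃ g : G, g • a = a' ∧ ((g • b = b ∧ g • c = c) ∨ (g • b = c ∧ g • c = b)) := by
  obtain ⟨g, h1, h2⟩ := hflag ⟨{b, c}, by simp [Finset.card_pair hbc]⟩ a a'
    (by rw [← Set.powersetCard.mem_coe_iff]; simp [hab, hac])
    (by rw [← Set.powersetCard.mem_coe_iff]; simp [hab', hac'])
  refine ⟨g, h1, ?_⟩
  have h3 := congrArg (fun t : Set.powersetCard Ω 2 => (t : Finset Ω)) h2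
  simp only [Set.powersetCard.coe_smul] at h3
  have hb : g • b ∈ ({b, c} : Finset Ω) := by
    rw [← h3]
    exact Finset.smul_mem_smul_finset (by simp)
  have hc : g • c ∈ ({b, c} : Finset Ω) := by
    rw [← h3]
    exact Finset.smul_mem_smul_finset (by simp)
  simp only [Finset.mem_insert, Finset.mem_singleton] at hb hc
  have hne : g • b ≠ g • c := fun h => hbc (smul_left_cancel g h)
  rcases hb with hb | hb <;> rcases hc with hc | hc
  · exact absurd (hb.trans hc.symm) hne
  · exact Or.inl ⟨hb, hc⟩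
  · exact Or.inr ⟨hb, hc⟩
  · exact absurd (hb.trans hc.symm) hne

theorem exists_swap (h2 : MulAction.IsMultiplyPretransitive G Ω 2)
    (heven : ∀ a : Ω, Even (Nat.card (MulAction.stabilizer G a)))
    (hflag : ∀ (s : Set.powersetCard Ω 2) (a a' : Ω), a ∉ s → a' ∉ s →
      ∃ g : G, g • a = a' ∧ g • s = s)
    (a b c : Ω) (hbc : b ≠ c) (hab : a ≠ b) (hac : a ≠ c) :
    ∃ w : G, w • a = a ∧ w • b = c ∧ w • c = b := by
  haveI : Fact (Nat.Prime 2) := ⟨Nat.prime_two⟩
  obtain ⟨u, hu⟩ := exists_prime_orderOf_dvd_card' (G := MulAction.stabilizer G a) 2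
    (heven a).two_dvd
  have hua : (u : G) • a = a := u.2
  have hu2 : (u : G) * u = 1 := by
    have := pow_orderOf_eq_one u
    rw [hu, sq] at this
    exact_mod_cast congrArg Subtype.val this
  have hu1 : (u : G) ≠ 1 := by
    intro h
    have : u = 1 := Subtype.ext h
    rw [this, orderOf_one] at hu
    omega
  obtain ⟨d, hd⟩ : ∃ d : Ω, (u : G) • d ≠ d := by
    by_contra hcon
    push Not at hcon
    exact hu1 (FaithfulSMul.eq_of_smul_eq_smul (α := Ω) fun x => by rw [hcon, one_smul])
  have hud : (u : G) • ((u : G) • d) = d := by rw [← mul_smul, hu2, one_smul]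
  obtain ⟨m₀, hm1, hm2⟩ := MulAction.is_two_pretransitive_iff.1 h2 hd.symm hbc
  have had : a ≠ d := by
    rintro rfl
    exact hd hua
  have haud : a ≠ (u : G) • d := by
    intro h
    apply had
    have := congrArg (fun x => (u : G) • x) h
    simp only [hua, hud] at this
    exact this
  obtain ⟨k, hk1, hk2⟩ := flag_points hflag (m₀ • a) a b c hbc
    (by rw [← hm1]; exact fun h => had (smul_left_cancel m₀ h))
    (by rw [← hm2]; exact fun h => haud (smul_left_cancel m₀ h)) hab hac
  have hma : (k * m₀) • a = a := by rw [mul_smul, hk1]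
  have hma' : (k * m₀)⁻¹ • a = a := by rw [inv_smul_eq_iff, hma]
  refine ⟨(k * m₀) * u * (k * m₀)⁻¹, by rw [mul_smul, mul_smul, hma', hua, hma], ?_⟩
  rcases hk2 with ⟨hb, hc⟩ | ⟨hb, hc⟩
  · have h1 : (k * m₀) • d = b := by rw [mul_smul, hm1, hb]
    have h2' : (k * m₀) • ((u : G) • d) = c := by rw [mul_smul, hm2, hc]
    have h3 : (k * m₀)⁻¹ • b = d := by rw [inv_smul_eq_iff, h1]
    have h4 : (k * m₀)⁻¹ • c = (u : G) • d := by rw [inv_smul_eq_iff, h2']
    exact ⟨by rw [mul_smul, mul_smul, h3, h2'], by rw [mul_smul, mul_smul, h4, hud, h1]⟩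
  · have h1 : (k * m₀) • d = c := by rw [mul_smul, hm1, hb]
    have h2' : (k * m₀) • ((u : G) • d) = b := by rw [mul_smul, hm2, hc]
    have h3 : (k * m₀)⁻¹ • c = d := by rw [inv_smul_eq_iff, h1]
    have h4 : (k * m₀)⁻¹ • b = (u : G) • d := by rw [inv_smul_eq_iff, h2']
    exact ⟨by rw [mul_smul, mul_smul, h4, hud, h1], by rw [mul_smul, mul_smul, h3, h2']⟩

theorem three_transitive_of_flag (h2 : MulAction.IsMultiplyPretransitive G Ω 2)
    (heven : ∀ a : Ω, Even (Nat.card (MulAction.stabilizer G a)))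
    (hflag : ∀ (s : Set.powersetCard Ω 2) (a a' : Ω), a ∉ s → a' ∉ s →
      ∃ g : G, g • a = a' ∧ g • s = s) :
    MulAction.IsMultiplyPretransitive G Ω 3 := by
  refine ⟨fun x y => ?_⟩
  have hx01 : x 0 ≠ x 1 := fun h => by simpa using x.injective h
  have hx02 : x 0 ≠ x 2 := fun h => by simpa using x.injective h
  have hx12 : x 1 ≠ x 2 := fun h => by simpa using x.injective h
  have hy01 : y 0 ≠ y 1 := fun h => by simpa using y.injective h
  have hy02 : y 0 ≠ y 2 := fun h => by simpa using y.injective h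
  have hy12 : y 1 ≠ y 2 := fun h => by simpa using y.injective h
  obtain ⟨g, hg1, hg2⟩ := MulAction.is_two_pretransitive_iff.1 h2 hx12 hy12
  obtain ⟨k, hk1, hk2⟩ := flag_points hflag (g • x 0) (y 0) (y 1) (y 2) hy12
    (by rw [← hg1]; exact fun h => hx01 (smul_left_cancel g h))
    (by rw [← hg2]; exact fun h => hx02 (smul_left_cancel g h)) hy01 hy02
  rcases hk2 with ⟨hb, hc⟩ | ⟨hb, hc⟩
  · refine ⟨k * g, ?_⟩
    ext i
    fin_cases i
    · change (k * g) • x 0 = y 0
      rw [mul_smul, hk1]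
    · change (k * g) • x 1 = y 1
      rw [mul_smul, hg1, hb]
    · change (k * g) • x 2 = y 2
      rw [mul_smul, hg2, hc]
  · obtain ⟨w, hw0, hw1, hw2⟩ := exists_swap h2 heven hflag (y 0) (y 1) (y 2) hy12 hy01 hy02
    refine ⟨w * k * g, ?_⟩
    ext i
    fin_cases i
    · change (w * k * g) • x 0 = y 0
      rw [mul_smul, mul_smul, hk1, hw0]
    · change (w * k * g) • x 1 = y 1
      rw [mul_smul, mul_smul, hg1, hb, hw2]
    · change (w * k * g) • x 2 = y 2
      rw [mul_smul, mul_smul, hg2, hc, hw1]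

end assembly

end Cfsg.Agent.Lib.Helper63
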