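import Cfsg.Agent.Lib.Helper63.Ito6

set_option autoImplicit false

namespace Cfsg.Agent.Lib.Helper63

open Cfsg MulAction

section grp

variable {α : Type*} [Fintype α] [DecidableEq α] {p : ℕ} [Fact p.Prime]

theorem no_fixed_of_orderOf (hα : Fintype.card α = p) (G : Subgroup (Equiv.Perm α)) (g : G)
    (hg : orderOf g = p) (a : α) : g • a ≠ a := by
  have hg' : orderOf (g : Equiv.Perm α) = p := by rw [Subgroup.orderOf_coe, hg]
  obtain ⟨e, he⟩ := exists_equiv_zmod hα (g : Equiv.Perm α) hg'
  obtain ⟨j, rfl⟩ := e.surjective a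
  intro h
  have h1 : e (j + 1) = e j := (he j).trans h
  have h2 := e.injective h1
  have : (1 : ZMod p) = 0 := by linear_combination h2
  exact one_ne_zero this

theorem eq_of_smul_eq (G : Subgroup (Equiv.Perm α)) (e : ZMod p ≃ α) (x y : G)
    (h : ∀ j, x • e j = y • e j) : x = y := by
  apply Subtype.ext
  ext a
  obtain ⟨j, rfl⟩ := e.surjective a
  exact h j

theorem itoHyp_of_sylow (hp : 2 < p) (hα : Fintype.card α = p) (G : Subgroup (Equiv.Perm α))
    [IsPretransitive G α] (h2 : IsMultiplyPretransitive G α 2) (P : Sylow p G)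
    (hN : Nat.card (Subgroup.normalizer ((P : Subgroup G) : Set G)) = 2 * p) :
    ItoHyp G α p (P : Subgroup G) (Subgroup.normalizer ((P : Subgroup G) : Set G)) := by
  have hpp : p.Prime := Fact.out
  have hP := card_sylow_eq hα G P
  have h2ne : (2 : ZMod p) ≠ 0 := by
    intro h
    have h3 : ((2 : ℕ) : ZMod p) = 0 := by exact_mod_cast h
    rw [ZMod.natCast_eq_zero_iff] at h3
    have := (Nat.prime_dvd_prime_iff_eq Fact.out Nat.prime_two).mp h3
    omega
  obtain ⟨c, hc⟩ := exists_prime_orderOf_dvd_card' (G := P) p (by rw [hP])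
  have hc1 : c ≠ 1 := by
    intro h
    rw [h, orderOf_one] at hc
    exact hpp.one_lt.ne hc
  have hcG : orderOf (c : G) = p := by rw [Subgroup.orderOf_coe, hc]
  have hc' : orderOf ((c : G) : Equiv.Perm α) = p := by rw [Subgroup.orderOf_coe, hcG]
  obtain ⟨e, he⟩ := exists_equiv_zmod hα ((c : G) : Equiv.Perm α) hc'
  have hce : ∀ j, (c : G) • e j = e (j + 1) := fun j => (he j).symm
  -- elements of `P` are powers of `c`, hence translations
  have hpow : ∀ y ∈ (P : Subgroup G), ∃ z : ℤ, (c : G) ^ z = y := by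
    intro y hy
    obtain ⟨z, hz⟩ := Subgroup.mem_zpowers_iff.1
      (mem_zpowers_of_prime_card (G := P) hP hc1 (g' := ⟨y, hy⟩))
    exact ⟨z, by simpa using congrArg Subtype.val hz⟩
  have hcommc : ∀ y ∈ (P : Subgroup G), y * (c : G) = (c : G) * y := by
    intro y hy
    obtain ⟨z, rfl⟩ := hpow y hy
    exact ((Commute.refl (c : G)).zpow_left z).eq
  have htrans : ∀ y ∈ (P : Subgroup G), ∃ k : ZMod p, ∀ j, y • e j = e (j + k) := by
    intro y hy
    exact ⟨_, translation_of_commute e (c : G) y hce (hcommc y hy)⟩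
  have hmemP : ∀ (x : G) (k : ZMod p), (∀ j, x • e j = e (j + k)) → x ∈ (P : Subgroup G) := by
    intro x k hx
    have : x = (c : G) ^ k.val := by
      apply eq_of_smul_eq G e
      intro j
      rw [hx, smul_pow_val e (c : G) hce]
    rw [this]
    exact Subgroup.pow_mem _ c.2 _
  have hnorm : ∀ x ∈ Subgroup.normalizer ((P : Subgroup G) : Set G), ∀ y ∈ (P : Subgroup G),
      x⁻¹ * y * x ∈ (P : Subgroup G) := by
    intro x hx y hy
    have := (Subgroup.mem_normalizer_iff.1 (inv_mem hx) y).1 hy
    rwa [inv_inv] at this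
  have haff : ∀ x ∈ Subgroup.normalizer ((P : Subgroup G) : Set G),
      ∃ τ s : ZMod p, ∀ j, x • e j = e (τ + s * j) := by
    intro x hx
    have hconj : x * (c : G) * x⁻¹ ∈ (P : Subgroup G) :=
      (Subgroup.mem_normalizer_iff.1 hx (c : G)).1 c.2
    obtain ⟨k, hk⟩ := htrans _ hconj
    exact ⟨_, _, affine_of_conj_translation e (c : G) x _ hce k hk (by group)⟩
  have hidx : ((P : Subgroup G).subgroupOf (Subgroup.normalizer ((P : Subgroup G) : Set G))).index
      = 2 := by
    have h1 := Subgroup.card_mul_index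
      ((P : Subgroup G).subgroupOf (Subgroup.normalizer ((P : Subgroup G) : Set G)))
    rw [Nat.card_congr (Subgroup.subgroupOfEquivOfLe Subgroup.le_normalizer).toEquiv, hP, hN,
      mul_comm 2 p] at h1
    exact Nat.eq_of_mul_eq_mul_left hpp.pos h1
  refine ⟨hp, hα, h2, hP, Subgroup.le_normalizer, hN, hnorm, ?_, ?_, ?_,
    fun g hg a => no_fixed_of_orderOf hα G g hg a⟩
  · -- TI
    intro x y hy hy1 hxy
    have hy1' : (⟨y, hy⟩ : P) ≠ 1 := fun h => hy1 (congrArg Subtype.val h)
    have hsub : ∀ z ∈ (P : Subgroup G), x⁻¹ * z * x ∈ (P : Subgroup G) := by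
      intro z hz
      obtain ⟨k, hk⟩ := Subgroup.mem_zpowers_iff.1
        (mem_zpowers_of_prime_card (G := P) hP hy1' (g' := ⟨z, hz⟩))
      have hk' : y ^ k = z := by simpa using congrArg Subtype.val hk
      rw [← hk']
      have : x⁻¹ * y ^ k * x = (x⁻¹ * y * x) ^ k := by
        have := conj_zpow (a := x⁻¹) (b := y) (i := k)
        rw [inv_inv] at this
        exact this.symm
      rw [this]
      exact Subgroup.zpow_mem _ hxy _
    -- the conjugation map is a bijection of `P`
    have hinj : Function.Injective (fun z : P => (⟨x⁻¹ * z * x, hsub z z.2⟩ : P)) := by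
      intro z z' h
      have h1 := congrArg Subtype.val h
      simp only at h1
      exact Subtype.ext (mul_left_cancel (mul_right_cancel h1))
    have hsurj := Finite.surjective_of_injective hinj
    have hx' : x⁻¹ ∈ Subgroup.normalizer ((P : Subgroup G) : Set G) := by
      rw [Subgroup.mem_normalizer_iff]
      intro z
      rw [inv_inv]
      refine ⟨hsub z, fun hz => ?_⟩
      obtain ⟨w, hw⟩ := hsurj ⟨_, hz⟩
      have h1 := congrArg Subtype.val hw
      simp only at h1
      have : (w : G) = z := mul_left_cancel (mul_right_cancel h1)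
      rw [← this]
      exact w.2
    have := inv_mem hx'
    rwa [inv_inv] at this
  · -- inversion
    intro x hx hxP y hy
    obtain ⟨τ, s, hxe⟩ := haff x hx
    have hxx : x * x ∈ (P : Subgroup G) := by
      have := Subgroup.mul_self_mem_of_index_two hidx ⟨x, hx⟩
      exact this
    obtain ⟨k, hk⟩ := htrans _ hxx
    have h0 := hk 0
    have h1 := hk 1
    rw [mul_smul, hxe, hxe] at h0 h1
    have h0' := e.injective h0
    have h1' := e.injective h1
    have hs2 : (s - 1) * (s + 1) = 0 := by linear_combination h1' - h0'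
    have hs : s = -1 := by
      rcases mul_eq_zero.1 hs2 with h | h
      · exfalso
        apply hxP
        apply hmemP x τ
        intro j
        rw [hxe, sub_eq_zero.1 h]
        congr 1
        ring
      · linear_combination h
    have hxe' : ∀ j, x • e j = e (τ - j) := by
      intro j
      rw [hxe, hs]
      congr 1
      ring
    have hxinv : ∀ j, x⁻¹ • e j = e (τ - j) := by
      intro j
      rw [inv_smul_eq_iff, hxe']
      congr 1
      ring
    obtain ⟨m, hm⟩ := htrans y hy
    apply eq_of_smul_eq G e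
    intro j
    rw [mul_smul, mul_smul, hxe', hm, hxinv, eq_inv_smul_iff, hm]
    congr 1
    ring
  · -- commutativity
    intro x hx y hy
    obtain ⟨z, rfl⟩ := hpow x hx
    obtain ⟨w, rfl⟩ := hpow y hy
    have : Commute ((c : G) ^ z) ((c : G) ^ w) := (Commute.refl (c : G)).zpow_zpow z w
    rw [mul_assoc, ← this.eq, inv_mul_cancel_left]

/-- the solvable case: the Sylow `p`-subgroup is normal -/
theorem sylow_normal_of_solvable (hα : Fintype.card α = p) (G : Subgroup (Equiv.Perm α))
    [IsPretransitive G α] (hsol : Group.IsSolvable G) (P : Sylow p G) :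
    (P : Subgroup G).Normal := by
  have hp : p.Prime := Fact.out
  have hcardα : Nat.card α = p := by rw [Nat.card_eq_fintype_card, hα]
  have hprim : IsPreprimitive G α := IsPreprimitive.of_prime_card (by rw [hcardα]; exact hp)
  have hntα : Nontrivial α := Fintype.one_lt_card_iff_nontrivial.mp (by rw [hα]; exact hp.one_lt)
  have hnt : Nontrivial G := by
    obtain ⟨a, a', haa'⟩ := exists_pair_ne α
    obtain ⟨g, hg⟩ := exists_smul_eq G a a'
    refine ⟨⟨g, 1, ?_⟩⟩
    intro h1
    rw [h1, one_smul] at hg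
    exact haa' hg
  obtain ⟨A, hAn, hA0, hAab⟩ := exists_abelian_normal hsol
  have hfix : fixedPoints A α ≠ Set.univ := by
    intro h1
    apply hA0
    rw [eq_bot_iff]
    intro x hx
    rw [Subgroup.mem_bot]
    apply Subtype.ext
    ext a
    have h2 : a ∈ fixedPoints A α := by rw [h1]; trivial
    exact h2 ⟨x, hx⟩
  have htr : IsPretransitive A α := IsQuasiPreprimitive.isPretransitive_of_normal hfix
  have hpA : p ∣ Nat.card A := by
    obtain ⟨a⟩ : Nonempty α := inferInstance
    have h1 := index_stabilizer_of_transitive A a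
    rw [hcardα] at h1
    rw [← h1]
    exact Subgroup.index_dvd_card _
  obtain ⟨a, ha⟩ := exists_prime_orderOf_dvd_card' p hpA
  have haG : orderOf (a : G) = p := by rw [Subgroup.orderOf_coe, ha]
  have ha' : orderOf ((a : G) : Equiv.Perm α) = p := by rw [Subgroup.orderOf_coe, haG]
  obtain ⟨e, he⟩ := exists_equiv_zmod hα ((a : G) : Equiv.Perm α) ha'
  have hc : ∀ j, (a : G) • e j = e (j + 1) := fun j => (he j).symm
  have hQn : (Subgroup.zpowers (a : G)).Normal := by
    refine ⟨fun y hy k => ?_⟩
    obtain ⟨z, rfl⟩ := Subgroup.mem_zpowers_iff.1 hy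
    rw [← conj_zpow]
    apply Subgroup.zpow_mem
    have hσA : k * (a : G) * k⁻¹ ∈ A := hAn.conj_mem _ a.2 _
    have hcomm : (k * (a : G) * k⁻¹) * (a : G) = (a : G) * (k * (a : G) * k⁻¹) :=
      hAab _ hσA _ a.2
    have htl := translation_of_commute e (a : G) _ hc hcomm
    have : k * (a : G) * k⁻¹ = (a : G) ^ (e.symm ((k * (a : G) * k⁻¹) • e 0)).val := by
      apply eq_of_smul_eq G e
      intro j
      rw [htl, smul_pow_val e (a : G) hc]
    rw [this]
    exact Subgroup.pow_mem _ (Subgroup.mem_zpowers _) _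
  have hQcard : Nat.card (Subgroup.zpowers (a : G)) = p := by rw [Nat.card_zpowers, haG]
  have hQp : IsPGroup p (Subgroup.zpowers (a : G)) := IsPGroup.of_card (n := 1) (by rw [hQcard, pow_one])
  obtain ⟨P', hP'⟩ := hQp.exists_le_sylow
  have hP'card := card_sylow_eq hα G P'
  have hP'eq : Subgroup.zpowers (a : G) = (P' : Subgroup G) :=
    Subgroup.eq_of_le_of_card_ge hP' (by rw [hP'card, hQcard])
  have hP'n : (P' : Subgroup G).Normal := hP'eq ▸ hQn
  have := Sylow.unique_of_normal P' hP'n
  rw [Subsingleton.elim P P']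
  exact hP'n

end grp

end Cfsg.Agent.Lib.Helper63
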