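import Cfsg.Agent.Lib.Helper63.Deg7
import Cfsg.Agent.S0675
import Cfsg.Agent.S0676
import Cfsg.Agent.S4706

set_option autoImplicit false

namespace Cfsg.Agent.Lib.Helper63

open Cfsg MulAction

theorem deg7_arith3 : ∀ n ∈ Nat.divisors 240, n % 7 = 1 → 2 ∣ n → n = 8 ∨ n = 120 := by
  decide +kernel

theorem deg7_arith6 : ∀ n ∈ Nat.divisors 120, n % 7 = 1 → 5 ∣ n → n = 15 ∨ n = 120 := by
  decide +kernel

theorem exists_set_ncard {α : Type*} [Fintype α] (k : ℕ) (h : k ≤ Fintype.card α) :
    ∃ s : Set α, s.ncard = k := by
  classical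
  obtain ⟨t, -, ht⟩ := Finset.exists_subset_card_eq (s := (Finset.univ : Finset α)) (n := k)
    (by rwa [Finset.card_univ])
  exact ⟨t, by rw [Set.ncard_coe_finset, ht]⟩

theorem card_eq_168 {α : Type*} [Fintype α] [DecidableEq α] (hα : Fintype.card α = 7)
    (G : Subgroup (Equiv.Perm α)) [IsPretransitive G α] (hG : ¬ Group.IsSolvable G)
    (hA : ¬ alternatingGroup α ≤ G) : Nat.card G = 168 := by
  classical
  have : Fact (Nat.Prime 7) := ⟨by norm_num⟩
  have hcardα : Nat.card α = 7 := by rw [Nat.card_eq_fintype_card, hα]
  have hprim : IsPreprimitive G α := IsPreprimitive.of_prime_card (by rw [hcardα]; norm_num)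
  have h2 : IsMultiplyPretransitive G α 2 :=
    (Cfsg.Agent.S0675.result (by rw [hα]; norm_num) G).resolve_left hG
  obtain ⟨P⟩ : Nonempty (Sylow 7 G) := inferInstance
  obtain ⟨d, hd, hN⟩ := card_normalizer_sylow hα G P
  have hn1 : Nat.card (Sylow 7 G) ≡ 1 [MOD 7] := card_sylow_modEq_one 7 G
  have hn2 : Nat.card (Sylow 7 G) = (Subgroup.normalizer ((P : Subgroup G) : Set G)).index :=
    Sylow.card_eq_index_normalizer P
  obtain ⟨n, hn⟩ : ∃ n, n = Nat.card (Sylow 7 G) := ⟨_, rfl⟩
  rw [← hn] at hn1 hn2
  have hcard : 7 * d * n = Nat.card G := by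
    rw [← hN, hn2]; exact Subgroup.card_mul_index _
  have hperm : Nat.card (Equiv.Perm α) = 5040 := by
    rw [Nat.card_eq_fintype_card, Fintype.card_perm, hα]; rfl
  have hdvd : Nat.card G ∣ 5040 := by
    rw [← hperm]; exact Subgroup.card_subgroup_dvd_card G
  have h42 : 42 ∣ Nat.card G := by
    obtain ⟨s, hs⟩ := exists_set_ncard (α := α) 2 (by rw [hα]; norm_num)
    have h := h2.index_of_fixingSubgroup_mul hs
    rw [hcardα] at h
    have h' : (fixingSubgroup G s).index = 42 := by
      have : (fixingSubgroup G s).index * 120 = 5040 := h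
      omega
    rw [← h']
    exact Subgroup.index_dvd_card _
  have hn7 : n % 7 = 1 := hn1
  have hd6 : d ∣ 6 := hd
  have hdle : d ≤ 6 := Nat.le_of_dvd (by norm_num) hd6
  have hnormal : ¬ (P : Subgroup G).Normal := by
    intro hPn
    have h1 : Subgroup.normalizer ((P : Subgroup G) : Set G) = ⊤ := Subgroup.normalizer_eq_top _
    rw [h1, Subgroup.index_top] at hn2
    rw [hn2] at hcard
    have h3 : Nat.card G ≤ 42 := by omega
    have h4 : Nat.card G = 42 := le_antisymm h3 (Nat.le_of_dvd Nat.card_pos h42)
    have h5 : d = 6 := by omega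
    have heven : Even (Nat.card (Subgroup.normalizer ((P : Subgroup G) : Set G))) := by
      rw [hN, h5]; decide
    have h3t := Cfsg.Agent.S0676.result hα G hG P heven
    obtain ⟨s, hs⟩ := exists_set_ncard (α := α) 3 (by rw [hα]; norm_num)
    have h := h3t.index_of_fixingSubgroup_mul hs
    rw [hcardα] at h
    have h' : (fixingSubgroup G s).index = 210 := by
      have : (fixingSubgroup G s).index * 24 = 5040 := h
      omega
    have h6 := Subgroup.index_dvd_card (fixingSubgroup G s)
    rw [h', h4] at h6
    omega
  interval_cases d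
  · omega
  · -- d = 1
    have := card_eq_of_normalizer_eq hα G P (by rw [hN])
    omega
  · -- d = 2
    exfalso
    rcases Cfsg.Agent.S4706.result (by norm_num) hα G P (by rw [hN]) with h | ⟨a, -, -, -, ha, -⟩
    · exact hnormal h
    · have h6 : 2 ^ a = 6 := by omega
      have ha3 : a < 3 := by
        by_contra hcon
        have : 2 ^ 3 ≤ 2 ^ a := Nat.pow_le_pow_right (by norm_num) (by omega)
        omega
      interval_cases a <;> omega
  · -- d = 3
    have hnd : n ∈ Nat.divisors 240 := by
      rw [Nat.mem_divisors]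
      refine ⟨?_, by norm_num⟩
      rw [← hcard] at hdvd
      have : 21 * n ∣ 21 * 240 := by
        have e : 7 * 3 * n = 21 * n := by ring
        rw [e] at hdvd
        exact hdvd
      exact Nat.dvd_of_mul_dvd_mul_left (by norm_num) this
    have h2n : 2 ∣ n := by
      rw [← hcard] at h42
      omega
    rcases deg7_arith3 n hnd hn7 h2n with h | h
    · rw [← hcard, h]
    · exfalso
      apply hA
      have hidx : G.index = 2 := by
        have := Subgroup.card_mul_index G
        rw [hperm, ← hcard, h] at this
        omega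
      rw [Equiv.Perm.eq_alternatingGroup_of_index_eq_two hidx]
  · omega
  · omega
  · -- d = 6
    exfalso
    have heven : Even (Nat.card (Subgroup.normalizer ((P : Subgroup G) : Set G))) := by
      rw [hN]; decide
    have h3t := Cfsg.Agent.S0676.result hα G hG P heven
    obtain ⟨s, hs⟩ := exists_set_ncard (α := α) 3 (by rw [hα]; norm_num)
    have h := h3t.index_of_fixingSubgroup_mul hs
    rw [hcardα] at h
    have h' : (fixingSubgroup G s).index = 210 := by
      have : (fixingSubgroup G s).index * 24 = 5040 := h
      omega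
    have h6 := Subgroup.index_dvd_card (fixingSubgroup G s)
    rw [h'] at h6
    have hnd : n ∈ Nat.divisors 120 := by
      rw [Nat.mem_divisors]
      refine ⟨?_, by norm_num⟩
      rw [← hcard] at hdvd
      have : 42 * n ∣ 42 * 120 := by
        have e : 7 * 6 * n = 42 * n := by ring
        rw [e] at hdvd
        exact hdvd
      exact Nat.dvd_of_mul_dvd_mul_left (by norm_num) this
    have h5n : 5 ∣ n := by
      rw [← hcard] at h6
      omega
    rcases deg7_arith6 n hnd hn7 h5n with hn15 | hn120
    · -- order 630: a 3-cycle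
      have hcf : Nat.card (fixingSubgroup G s) = 3 := by
        have := Subgroup.card_mul_index (fixingSubgroup G s)
        rw [h', ← hcard, hn15] at this
        omega
      have : Fact (Nat.Prime 3) := ⟨by norm_num⟩
      have : Fintype s := Fintype.ofFinite s
      obtain ⟨g, hg⟩ := exists_prime_orderOf_dvd_card' (G := fixingSubgroup G s) 3 (by rw [hcf])
      have hgG : orderOf ((g : G) : Equiv.Perm α) = 3 := by
        rw [Subgroup.orderOf_coe, Subgroup.orderOf_coe, hg]
      obtain ⟨k, hk⟩ := Equiv.Perm.cycleType_prime_order (σ := ((g : G) : Equiv.Perm α))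
        (by rw [hgG]; norm_num)
      rw [hgG] at hk
      have hsum := Equiv.Perm.sum_cycleType ((g : G) : Equiv.Perm α)
      rw [hk, Multiset.sum_replicate, smul_eq_mul] at hsum
      have hsupp : ((g : G) : Equiv.Perm α).support.card ≤ 4 := by
        have hsub : ((g : G) : Equiv.Perm α).support ⊆ (s.toFinset)ᶜ := by
          intro x hx
          rw [Finset.mem_compl, Set.mem_toFinset]
          intro hxs
          rw [Equiv.Perm.mem_support] at hx
          apply hx
          have := (mem_fixingSubgroup_iff G).1 g.2 x hxs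
          exact this
        have h1 := Finset.card_le_card hsub
        rw [Finset.card_compl, hα, ← Set.ncard_eq_toFinset_card', hs] at h1
        exact h1
      have hk0 : k = 0 := by omega
      have h3c : Equiv.Perm.IsThreeCycle ((g : G) : Equiv.Perm α) := by
        rw [Equiv.Perm.IsThreeCycle, hk, hk0]
        rfl
      exact hA (Equiv.Perm.alternatingGroup_le_of_isPreprimitive_of_isThreeCycle_mem hprim h3c
        (g : G).2)
    · apply hA
      have : G = ⊤ := by
        apply Subgroup.eq_top_of_card_eq
        rw [hperm, ← hcard, hn120]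
      rw [this]
      exact le_top

end Cfsg.Agent.Lib.Helper63
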