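import Cfsg.Agent.Lib.Helper63.Derangement

set_option autoImplicit false

namespace Cfsg.Agent.Lib.Helper63

open MulAction

variable {G Ω : Type*} [Group G] [MulAction G Ω]

theorem mem_derSub_of_two_fixed [Finite G] [Finite Ω] [IsPretransitive G Ω] {α β : Ω}
    (hne : β ≠ α) {g : G} (hα : g • α = α) (hβ : g • β = β) : g ∈ derSub G Ω := by
  have : Nonempty Ω := ⟨α⟩
  by_contra hg
  have h1 := (derSub_main (G := G) (Ω := Ω)).2 g hg
  obtain ⟨hs, -⟩ := Nat.card_eq_one_iff_unique.mp h1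
  have := hs.elim (⟨α, hα⟩ : fixedBy Ω g) ⟨β, hβ⟩
  exact hne (congrArg Subtype.val this).symm

theorem stabilizer_sup_derSub [Finite G] [Finite Ω] [IsPretransitive G Ω] (α : Ω) :
    stabilizer G α ⊔ derSub G Ω = ⊤ := by
  have : Nonempty Ω := ⟨α⟩
  have ht := (derSub_main (G := G) (Ω := Ω)).1
  rw [eq_top_iff]
  intro g _
  obtain ⟨⟨d, hd⟩, hdα⟩ := ht.exists_smul_eq α (g • α)
  have hdα' : d • α = g • α := hdα
  have h1 : d⁻¹ * g ∈ stabilizer G α := by
    rw [mem_stabilizer_iff, mul_smul, ← hdα', inv_smul_smul]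
  have h2 : g = d * (d⁻¹ * g) := by group
  rw [h2]
  exact Subgroup.mul_mem _ (Subgroup.mem_sup_right hd) (Subgroup.mem_sup_left h1)

theorem derSub_relIndex_stabilizer [Finite G] [Finite Ω] [IsPretransitive G Ω] (α : Ω) :
    (derSub G Ω).relIndex (stabilizer G α) = (derSub G Ω).index := by
  have := derSub_normal (G := G) (Ω := Ω)
  rw [← Subgroup.relIndex_sup_right, stabilizer_sup_derSub, Subgroup.relIndex_top_right]

theorem index_dvd_card_orbit [Finite G] [Finite Ω] [IsPretransitive G Ω] {α β : Ω}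
    (hne : β ≠ α) : (derSub G Ω).index ∣ Nat.card (orbit (stabilizer G α) β) := by
  rw [Nat.card_coe_set_eq, ← index_stabilizer, ← derSub_relIndex_stabilizer α]
  apply Subgroup.index_dvd_of_le
  rintro ⟨h, hα⟩ hβ
  exact mem_derSub_of_two_fixed hne hα hβ

theorem dvd_card_of_invariant {H X : Type*} [Group H] [MulAction H X] [Finite X] (S : Set X)
    (m : ℕ) (hinv : ∀ h : H, ∀ x ∈ S, h • x ∈ S) (hm : ∀ x ∈ S, m ∣ Nat.card (orbit H x)) :
    m ∣ Nat.card S := by
  classical
  have := Fintype.ofFinite X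
  rw [Nat.card_coe_set_eq, Set.ncard_eq_toFinset_card']
  rw [Finset.card_eq_sum_card_image
    (fun x => (Quotient.mk'' x : orbitRel.Quotient H X)) S.toFinset]
  apply Finset.dvd_sum
  intro q hq
  obtain ⟨x, hx, rfl⟩ := Finset.mem_image.mp hq
  rw [Set.mem_toFinset] at hx
  have hset : ((S.toFinset.filter
      (fun a => (Quotient.mk'' a : orbitRel.Quotient H X) = Quotient.mk'' x) : Finset X) : Set X)
      = orbit H x := by
    ext a
    simp only [Finset.coe_filter, Set.mem_toFinset, Set.mem_ofPred_eq]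
    rw [Quotient.eq'', orbitRel_apply]
    constructor
    · exact fun h => h.2
    · rintro ⟨h, rfl⟩
      exact ⟨hinv h x hx, ⟨h, rfl⟩⟩
  have := hm x hx
  rw [← hset, Nat.card_coe_set_eq, Set.ncard_coe_finset] at this
  exact this

theorem index_dvd_card_of_invariant [Finite G] [Finite Ω] [IsPretransitive G Ω] (α : Ω)
    (S : Set Ω) (hα : α ∉ S) (hinv : ∀ g : G, g • α = α → ∀ x ∈ S, g • x ∈ S) :
    (derSub G Ω).index ∣ Nat.card S := by
  apply dvd_card_of_invariant (H := stabilizer G α) S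
  · rintro ⟨g, hg⟩ x hx
    exact hinv g hg x hx
  · intro x hx
    apply index_dvd_card_orbit
    rintro rfl
    exact hα hx

end Cfsg.Agent.Lib.Helper63
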