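import Mathlib

set_option autoImplicit false

namespace Cfsg.Agent.Lib.Helper63

open MulAction
open scoped Pointwise

variable {ι A : Type*} [Fintype ι] [DecidableEq ι] [DecidableEq A]

/-- The group of Hamming isometries of `ι → A`. -/
def hamGroup (ι A : Type*) [Fintype ι] [DecidableEq A] : Subgroup (Equiv.Perm (ι → A)) where
  carrier := {σ | ∀ x y, hammingDist (σ x) (σ y) = hammingDist x y}
  one_mem' := fun _ _ => rfl
  mul_mem' := by
    intro σ τ hσ hτ x y
    rw [Equiv.Perm.mul_apply, Equiv.Perm.mul_apply, hσ, hτ]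
  inv_mem' := by
    intro σ hσ x y
    have := hσ (σ⁻¹ x) (σ⁻¹ y)
    simpa using this.symm

theorem mem_hamGroup {σ : Equiv.Perm (ι → A)} :
    σ ∈ hamGroup ι A ↔ ∀ x y, hammingDist (σ x) (σ y) = hammingDist x y := Iff.rfl

/-- An element of the wreath product in product action. -/
def wrPerm (π : ι → Equiv.Perm A) (τ : Equiv.Perm ι) : Equiv.Perm (ι → A) where
  toFun x := fun k => π k (x (τ k))
  invFun x := fun k => (π (τ.symm k)).symm (x (τ.symm k))
  left_inv := by intro x; funext k; simp
  right_inv := by intro x; funext k; simp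

theorem wrPerm_apply (π : ι → Equiv.Perm A) (τ : Equiv.Perm ι) (x : ι → A) (k : ι) :
    wrPerm π τ x k = π k (x (τ k)) := rfl

theorem wrPerm_mem (π : ι → Equiv.Perm A) (τ : Equiv.Perm ι) : wrPerm π τ ∈ hamGroup ι A := by
  intro x y
  unfold hammingDist
  apply Finset.card_equiv τ
  intro k
  simp [wrPerm_apply]

theorem exists_perm_two (a a' b b' : A) (h : a ≠ a') (h' : b ≠ b') :
    ∃ π : Equiv.Perm A, π a = b ∧ π a' = b' := by
  have := (MulAction.is_two_pretransitive_iff (G := Equiv.Perm A) (α := A)).1
    (Equiv.Perm.isMultiplyPretransitive A 2) h h'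
  obtain ⟨g, h1, h2⟩ := this
  exact ⟨g, h1, h2⟩

theorem hamGroup_isPretransitive : IsPretransitive (hamGroup ι A) (ι → A) := by
  constructor
  intro x y
  refine ⟨⟨wrPerm (fun k => Equiv.swap (x k) (y k)) 1, wrPerm_mem _ _⟩, ?_⟩
  funext k
  change wrPerm (fun k => Equiv.swap (x k) (y k)) 1 x k = y k
  simp [wrPerm_apply]

/-- if `g` in the group maps a point of the block `B` into `B`, it maps all of `B` into `B`. -/
theorem block_closed {B : Set (ι → A)} (hB : IsBlock (hamGroup ι A) B)
    (g : Equiv.Perm (ι → A)) (hg : g ∈ hamGroup ι A) {x y : ι → A} (hx : x ∈ B) (hgx : g x ∈ B)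
    (hy : y ∈ B) : g y ∈ B := by
  have h1 : (⟨g, hg⟩ : hamGroup ι A) • B = B := by
    apply hB.smul_eq_of_mem hx
    exact hgx
  rw [← h1]
  exact ⟨y, hy, rfl⟩

theorem hamGroup_block_step (h3 : ∀ a b : A, ∃ c, c ≠ a ∧ c ≠ b)
    {B : Set (ι → A)} (hB : IsBlock (hamGroup ι A) B)
    {x y : ι → A} (hx : x ∈ B) (hy : y ∈ B) (hxy : x ≠ y) :
    ∀ z ∈ B, ∀ i c, Function.update z i c ∈ B := by
  obtain ⟨i₀, hi₀⟩ : ∃ i₀, x i₀ ≠ y i₀ := by
    by_contra hcon
    push Not at hcon
    exact hxy (funext hcon)
  obtain ⟨c₀, hc1, hc2⟩ := h3 (x i₀) (y i₀)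
  -- first step
  have hy' : Function.update y i₀ c₀ ∈ B := by
    have hg := wrPerm_mem (A := A) (fun k => if k = i₀ then Equiv.swap (y i₀) c₀ else 1) 1
    have e1 : wrPerm (A := A) (fun k => if k = i₀ then Equiv.swap (y i₀) c₀ else 1) 1 x = x := by
      funext k
      rw [wrPerm_apply]
      by_cases hk : k = i₀
      · subst hk
        simp only [if_true, Equiv.Perm.one_apply]
        exact Equiv.swap_apply_of_ne_of_ne hi₀ hc1.symm
      · simp [hk]
    have e2 : wrPerm (A := A) (fun k => if k = i₀ then Equiv.swap (y i₀) c₀ else 1) 1 y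
        = Function.update y i₀ c₀ := by
      funext k
      rw [wrPerm_apply]
      by_cases hk : k = i₀
      · subst hk
        simp
      · simp [hk]
    have := block_closed hB _ hg hx (by rw [e1]; exact hx) hy
    rwa [e2] at this
  intro z hz i c
  by_cases hc : c = z i
  · subst hc
    simpa using hz
  obtain ⟨ρ, hρ1, hρ2⟩ := exists_perm_two (y i₀) c₀ (z i) c hc2.symm (Ne.symm hc)
  have hg := wrPerm_mem (A := A)
    (fun k => if k = i then ρ else Equiv.swap (y (Equiv.swap i i₀ k)) (z k)) (Equiv.swap i i₀)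
  have e1 : wrPerm (A := A)
    (fun k => if k = i then ρ else Equiv.swap (y (Equiv.swap i i₀ k)) (z k)) (Equiv.swap i i₀) y
      = z := by
    funext k
    rw [wrPerm_apply]
    by_cases hk : k = i
    · subst hk
      simp [hρ1]
    · simp [hk]
  have e2 : wrPerm (A := A)
    (fun k => if k = i then ρ else Equiv.swap (y (Equiv.swap i i₀ k)) (z k)) (Equiv.swap i i₀)
      (Function.update y i₀ c₀) = Function.update z i c := by
    funext k
    rw [wrPerm_apply]
    by_cases hk : k = i
    · subst hk
      simp [hρ2]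
    · have : Equiv.swap i i₀ k ≠ i₀ := by
        intro h
        apply hk
        have := congrArg (Equiv.swap i i₀) h
        simpa using this
      simp [hk, Function.update_of_ne this]
  have := block_closed hB _ hg hy (by rw [e1]; exact hz) hy'
  rwa [e2] at this

theorem hamGroup_isPreprimitive (h3 : ∀ a b : A, ∃ c, c ≠ a ∧ c ≠ b) :
    IsPreprimitive (hamGroup ι A) (ι → A) := by
  haveI := hamGroup_isPretransitive (ι := ι) (A := A)
  constructor
  intro B hB
  by_cases hs : B.Subsingleton
  · exact Or.inl hs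
  right
  rw [Set.not_subsingleton_iff] at hs
  obtain ⟨x, hx, y, hy, hxy⟩ := hs
  have step := hamGroup_block_step h3 hB hx hy hxy
  rw [Set.eq_univ_iff_forall]
  intro w
  have key : ∀ s : Finset ι, (fun k => if k ∈ s then w k else x k) ∈ B := by
    intro s
    induction s using Finset.induction_on with
    | empty => simpa using hx
    | insert a s ha ih =>
      have := step _ ih a (w a)
      convert this using 1
      funext k
      by_cases hk : k = a
      · subst hk
        simp
      · simp [hk]
  simpa using key Finset.univ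

theorem hamGroup_not_two (hι : ∃ i j : ι, i ≠ j) (hA : ∃ a b : A, a ≠ b) :
    ¬ ∀ {a b c d : ι → A} (_ : a ≠ b) (_ : c ≠ d), ∃ g : hamGroup ι A, g • a = c ∧ g • b = d := by
  intro h
  obtain ⟨i, j, hij⟩ := hι
  obtain ⟨a, b, hab⟩ := hA
  have d1 : hammingDist (fun _ : ι => a) (Function.update (fun _ : ι => a) i b) = 1 := by
    unfold hammingDist
    rw [Finset.card_eq_one]
    refine ⟨i, ?_⟩
    ext k
    by_cases hk : k = i
    · subst hk
      simp [hab]
    · simp [hk]
  have d2 : hammingDist (fun _ : ι => a)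
      (Function.update (Function.update (fun _ : ι => a) i b) j b) = 2 := by
    unfold hammingDist
    rw [Finset.card_eq_two]
    refine ⟨i, j, hij, ?_⟩
    ext k
    by_cases hk : k = j
    · subst hk
      simp [hab]
    · by_cases hk' : k = i
      · subst hk'
        simp [hk, hab]
      · simp [hk, hk']
  have n1 : (fun _ : ι => a) ≠ (Function.update (fun _ : ι => a) i b) := by
    intro h
    rw [← h] at d1
    simp at d1
  have n2 : (fun _ : ι => a) ≠ (Function.update (Function.update (fun _ : ι => a) i b) j b) := by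
    intro h
    rw [← h] at d2
    simp at d2
  obtain ⟨g, hg1, hg2⟩ := h n1 n2
  have := g.2 (fun _ : ι => a) (Function.update (fun _ : ι => a) i b)
  have hg1' : (g : Equiv.Perm (ι → A)) (fun _ : ι => a) = (fun _ : ι => a) := hg1
  have hg2' : (g : Equiv.Perm (ι → A)) (Function.update (fun _ : ι => a) i b) =
    (Function.update (Function.update (fun _ : ι => a) i b) j b) := hg2
  rw [hg1', hg2', d1, d2] at this
  omega

end Cfsg.Agent.Lib.Helper63
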