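import Mathlib
import Cfsg.Prelude.Def_Characters
import Cfsg.Agent.Lib.Helper19.BSChar
import Cfsg.Agent.Lib.Helper82.Constituent
import Cfsg.Agent.Lib.Helper83.Basic
import Cfsg.Agent.S0157

set_option autoImplicit false

namespace Cfsg.Agent.Lib.Helper63

open Cfsg Cfsg.Agent.Lib.Helper20 Cfsg.Agent.Lib.Helper32 Cfsg.Agent.Lib.Helper19
open scoped ComplexConjugate

section peel

variable {G : Type*} [Group G] [Fintype G]

/-- removing distinct irreducible constituents from a character -/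
theorem isCharacter_sub_sum {Φ : G → ℂ} (hΦ : IsCharacter G Φ) (S : Finset (G → ℂ))
    (hS : ∀ X ∈ S, IsIrrCharacter G X) (hne : ∀ X ∈ S, classInner Φ X ≠ 0) :
    IsCharacter G (Φ - ∑ X ∈ S, X) := by
  classical
  apply isCharacter_of_classInner_nat
  · exact isClassFunction_sub (isClassFunction_of_isCharacter hΦ)
      (isClassFunction_sum S _ fun X hX =>
        isClassFunction_of_isCharacter (isCharacter_of_isIrrCharacter (hS X hX)))
  · intro ψ hψ
    rw [classInner_sub_left, classInner_sum_left]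
    obtain ⟨n, hn⟩ := isCharacter_classInner_nat hΦ hψ
    have h1 : ∑ X ∈ S, classInner X ψ = if ψ ∈ S then 1 else 0 := by
      rw [Finset.sum_congr rfl (fun X hX => classInner_irr (hS X hX) hψ)]
      rw [Finset.sum_ite_eq' S ψ]
    rw [h1, hn]
    by_cases hmem : ψ ∈ S
    · rw [if_pos hmem]
      have hn0 : n ≠ 0 := by
        rintro rfl
        exact hne ψ hmem (by rw [hn]; simp)
      obtain ⟨m, rfl⟩ := Nat.exists_eq_succ_of_ne_zero hn0
      exact ⟨m, by push_cast; ring⟩
    · rw [if_neg hmem]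
      exact ⟨n, by simp⟩

end peel

/-- the hypotheses of Ito's theorem, in abstract form -/
structure ItoHyp (G : Type*) [Group G] (α : Type*) [Fintype α] [MulAction G α] (p : ℕ)
    (P N : Subgroup G) : Prop where
  hp : 2 < p
  hα : Fintype.card α = p
  h2 : MulAction.IsMultiplyPretransitive G α 2
  hP : Nat.card P = p
  hPN : P ≤ N
  hN : Nat.card N = 2 * p
  hnorm : ∀ x ∈ N, ∀ y ∈ P, x⁻¹ * y * x ∈ P
  hTI : ∀ x : G, ∀ y ∈ P, y ≠ 1 → x⁻¹ * y * x ∈ P → x ∈ N
  hinv : ∀ x ∈ N, x ∉ P → ∀ y ∈ P, x⁻¹ * y * x = y⁻¹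
  hcomm : ∀ x ∈ P, ∀ y ∈ P, x⁻¹ * y * x = y
  hfix : ∀ g : G, orderOf g = p → ∀ a : α, g • a ≠ a

section exc

variable {G : Type*} [Group G] [Fintype G] {α : Type*} [Fintype α] [MulAction G α]
  {p : ℕ} [Fact p.Prime] {P N : Subgroup G}

/-- the number of fixed points, as a complex number -/
noncomputable def fixC (α : Type*) [MulAction G α] (g : G) : ℂ :=
  (Nat.card (MulAction.fixedBy α g) : ℂ)

/-- the nonprincipal constituent of the permutation character -/
noncomputable def chiP (α : Type*) [MulAction G α] : G → ℂ := fun g => fixC α g - 1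

theorem ItoHyp.isIrr_chiP (H : ItoHyp G α p P N) : IsIrrCharacter G (chiP (G := G) α) := by
  have h2 := H.h2
  have : MulAction.IsPretransitive G α :=
    MulAction.isPretransitive_of_is_two_pretransitive
  exact (Cfsg.Agent.S0157.result (G := G) α (by
    rw [Nat.card_eq_fintype_card, H.hα]; exact H.hp.le)).2 h2

theorem ItoHyp.orderOf_eq (H : ItoHyp G α p P N) (y : P) (hy : y ≠ 1) : orderOf (y : G) = p := by
  rw [Subgroup.orderOf_coe]
  exact orderOf_eq_card_of_forall_mem_zpowers
    (fun z => mem_zpowers_of_prime_card H.hP hy) |>.trans H.hP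

theorem ItoHyp.fixC_eq_zero (H : ItoHyp G α p P N) (g : G) (hg : orderOf g = p) :
    fixC α g = 0 := by
  unfold fixC
  have : IsEmpty (MulAction.fixedBy α g) := ⟨fun a => H.hfix g hg a.1 a.2⟩
  simp

theorem fixC_one (hα : Fintype.card α = p) : fixC α (1 : G) = p := by
  unfold fixC
  rw [MulAction.fixedBy_one_eq_univ, Nat.card_coe_set_eq, Set.ncard_univ, Nat.card_eq_fintype_card, hα]

/-- the exceptional characters -/
noncomputable def excChar (α : Type*) [MulAction G α] (μ : P →* ℂˣ) : G → ℂ :=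
  indFun P (oneSub μ) - (fun _ => (1 : ℂ)) + chiP α

theorem ItoHyp.sq_ne_one (H : ItoHyp G α p P N) (μ : P →* ℂˣ) (hμ : μ ≠ 1) : μ ^ 2 ≠ 1 := by
  intro h
  apply hμ
  ext y
  have h1 : (μ y) ^ 2 = 1 := by
    have := congrArg (fun ν : P →* ℂˣ => ν y) h
    simpa using this
  have h2 : (μ y) ^ p = 1 := by
    rw [← map_pow, ← H.hP, pow_card_eq_one', map_one]
  have h3 : (μ y) ^ (Nat.gcd 2 p) = 1 := pow_gcd_eq_one.2 ⟨h1, h2⟩
  have hcop : Nat.gcd 2 p = 1 := by
    have hp : p.Prime := Fact.out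
    have := (Nat.coprime_primes Nat.prime_two hp).2 (by have := H.hp; omega)
    exact this
  rw [hcop, pow_one] at h3
  simp [h3]

theorem ItoHyp.norm_theta (H : ItoHyp G α p P N) [Fintype P] (μ : P →* ℂˣ) (hμ : μ ≠ 1) :
    classInner (indFun P (oneSub μ)) (indFun P (oneSub μ)) = 3 := by
  refine norm_indFun_oneSub P N H.hPN μ H.hnorm ?_ ?_ (H.sq_ne_one μ hμ) (by rw [H.hN, H.hP])
  · intro x y hy hx
    refine H.hTI x y y.2 ?_ hx
    intro h1
    apply hy
    have : y = 1 := Subtype.ext h1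
    rw [this, map_one]
  · intro x hx hxP y
    have h1 : (⟨x⁻¹ * y * x, H.hnorm x hx y y.2⟩ : P) = y⁻¹ := Subtype.ext (H.hinv x hx hxP y y.2)
    rw [h1, map_inv]

theorem ItoHyp.inner_theta_chi (H : ItoHyp G α p P N) [Fintype P] (μ : P →* ℂˣ) (hμ : μ ≠ 1) :
    classInner (indFun P (oneSub μ)) (chiP α) = -1 := by
  rw [frobenius_reciprocity P _ _
    (isClassFunction_of_isCharacter (isCharacter_of_isIrrCharacter H.isIrr_chiP))]
  unfold classInner
  have h1 : ∀ y : P, oneSub μ y * conj (chiP α (y : G)) = -(oneSub μ y) := by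
    intro y
    by_cases hy : y = 1
    · subst hy
      simp [oneSub]
    · unfold chiP
      rw [H.fixC_eq_zero _ (H.orderOf_eq y hy)]
      simp
  rw [Finset.sum_congr rfl (fun y _ => h1 y), Finset.sum_neg_distrib]
  unfold oneSub
  rw [Finset.sum_sub_distrib, sum_homFun_eq_zero μ hμ]
  simp only [Finset.sum_const, Finset.card_univ, nsmul_eq_mul, mul_one, sub_zero]
  rw [← Nat.card_eq_fintype_card, mul_neg, inv_mul_cancel₀ (card_ne_zero_complex P)]

theorem ItoHyp.genChar_exc (H : ItoHyp G α p P N) (μ : P →* ℂˣ) :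
    IsGeneralizedCharacter G (excChar α μ) :=
  genChar_add (genChar_sub (genChar_indFun_oneSub μ) (genChar_of_char isCharacter_one))
    (genChar_of_irr H.isIrr_chiP)

theorem ItoHyp.exc_apply (H : ItoHyp G α p P N) (μ : P →* ℂˣ) (g : G) (hg : orderOf g ≠ p) :
    excChar α μ g = fixC α g - 2 := by
  have h1 : indFun P (oneSub μ) g = 0 := by
    apply indFun_oneSub_eq_zero
    intro y hy
    by_cases hy1 : y = 1
    · rw [hy1, map_one]
    · exact absurd (hy.symm.trans (H.orderOf_eq y hy1)) hg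
  unfold excChar chiP
  simp only [Pi.add_apply, Pi.sub_apply, h1]
  ring

theorem ItoHyp.exc_one (H : ItoHyp G α p P N) (μ : P →* ℂˣ) : excChar α μ 1 = (p : ℂ) - 2 := by
  rw [H.exc_apply μ 1 (by rw [orderOf_one]; have := H.hp; omega), fixC_one H.hα]

theorem ItoHyp.isIrr_exc (H : ItoHyp G α p P N) (μ : P →* ℂˣ) (hμ : μ ≠ 1) :
    IsIrrCharacter G (excChar α μ) := by
  classical
  have : Fintype P := Fintype.ofFinite P
  have hθ := genChar_indFun_oneSub μ
  have h1g : IsGeneralizedCharacter G (fun _ => (1 : ℂ)) := genChar_of_char isCharacter_one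
  have hχg := genChar_of_irr H.isIrr_chiP
  have a1 := H.norm_theta μ hμ
  have a2 := inner_indFun_oneSub_one μ hμ
  have a3 := H.inner_theta_chi μ hμ
  have a4 : classInner (fun _ => (1 : ℂ)) (indFun P (oneSub μ)) = 1 := by
    rw [genChar_inner_comm h1g hθ, a2]
  have a5 : classInner (chiP α) (indFun P (oneSub μ)) = -1 := by
    rw [genChar_inner_comm hχg hθ, a3]
  have a6 : classInner (fun _ : G => (1 : ℂ)) (fun _ => (1 : ℂ)) = 1 :=
    classInner_irr_self Cfsg.Agent.Lib.Helper83.isIrr_trivial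
  have a7 : classInner (chiP (G := G) α) (chiP α) = 1 := classInner_irr_self H.isIrr_chiP
  have hne : (fun _ : G => (1 : ℂ)) ≠ chiP α := by
    intro h
    have h2 := congrFun h 1
    unfold chiP at h2
    rw [fixC_one H.hα] at h2
    have h3 : (p : ℂ) = 2 := by linear_combination -h2
    have h4 : p = 2 := by exact_mod_cast h3
    have := H.hp
    omega
  have a8 : classInner (fun _ : G => (1 : ℂ)) (chiP α) = 0 :=
    classInner_irr_ne Cfsg.Agent.Lib.Helper83.isIrr_trivial H.isIrr_chiP hne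
  have a9 : classInner (chiP (G := G) α) (fun _ => (1 : ℂ)) = 0 :=
    classInner_irr_ne H.isIrr_chiP Cfsg.Agent.Lib.Helper83.isIrr_trivial hne.symm
  have hnorm : classInner (excChar α μ) (excChar α μ) = 1 := by
    unfold excChar
    simp only [classInner_add_left, classInner_add_right, classInner_sub_left,
      classInner_sub_right, a1, a2, a3, a4, a5, a6, a7, a8, a9]
    norm_num
  rcases genChar_norm_one (H.genChar_exc μ) hnorm with h | h
  · exact h
  · exfalso
    obtain ⟨n, hn, hn1⟩ := irr_apply_one h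
    rw [Pi.neg_apply, H.exc_one μ] at hn1
    have h3 : ((n + p : ℕ) : ℂ) = (2 : ℕ) := by push_cast; linear_combination -hn1
    have h4 : n + p = 2 := by exact_mod_cast h3
    have := H.hp
    omega

end exc

end Cfsg.Agent.Lib.Helper63
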