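import Cfsg.Agent.Lib.Helper63.Ito1

set_option autoImplicit false

namespace Cfsg.Agent.Lib.Helper63

open Cfsg Cfsg.Agent.Lib.Helper20 Cfsg.Agent.Lib.Helper32 Cfsg.Agent.Lib.Helper19
open scoped ComplexConjugate

theorem card_hom_of_prime {P : Type*} [Group P] [Finite P] {p : ℕ} [Fact p.Prime]
    (hP : Nat.card P = p) : Nat.card (P →* ℂˣ) = p := by
  have : IsCyclic P := isCyclic_of_prime_card hP
  let _ : CommGroup P := IsCyclic.commGroup
  have : NeZero ((Monoid.exponent P : ℕ) : ℂ) :=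
    ⟨by exact_mod_cast Monoid.exponent_ne_zero_of_finite⟩
  rw [← hP]
  exact CommGroup.card_monoidHom_of_hasEnoughRootsOfUnity P ℂ

theorem hom_ext_of_prime {P : Type*} [Group P] [Finite P] {p : ℕ} [Fact p.Prime]
    (hP : Nat.card P = p) (c : P) (hc : c ≠ 1) (μ ν : P →* ℂˣ) (h : μ c = ν c) : μ = ν := by
  ext y
  obtain ⟨k, rfl⟩ := Subgroup.mem_zpowers_iff.1 (mem_zpowers_of_prime_card hP hc (g' := y))
  rw [map_zpow, map_zpow, h]

section exc

variable {G : Type*} [Group G] [Fintype G] {α : Type*} [Fintype α] [MulAction G α]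
  {p : ℕ} [Fact p.Prime] {P N : Subgroup G}

theorem ItoHyp.theta_apply (H : ItoHyp G α p P N) (μ : P →* ℂˣ) (c : P) (hc : c ≠ 1) :
    indFun P (oneSub μ) (c : G) = 2 - ((μ c : ℂˣ) : ℂ) - (((μ c)⁻¹ : ℂˣ) : ℂ) := by
  classical
  rw [indFun_apply]
  have hc1 : (c : G) ≠ 1 := fun h => hc (Subtype.ext h)
  have h1 : ∀ x : G, extendByZero P (oneSub μ) (x⁻¹ * (c : G) * x) =
      (if x ∈ P then ((((μ c)⁻¹ : ℂˣ) : ℂ) - ((μ c : ℂˣ) : ℂ)) else 0) +
      (if x ∈ N then (1 - (((μ c)⁻¹ : ℂˣ) : ℂ)) else 0) := by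
    intro x
    by_cases hxN : x ∈ N
    · by_cases hxP : x ∈ P
      · rw [if_pos hxP, if_pos hxN, H.hcomm x hxP c c.2, extendByZero_coe]
        unfold oneSub
        ring
      · rw [if_neg hxP, if_pos hxN, H.hinv x hxN hxP c c.2]
        have : ((c : G))⁻¹ = ((c⁻¹ : P) : G) := rfl
        rw [this, extendByZero_coe]
        unfold oneSub
        rw [map_inv]
        ring
    · have hxP : x ∉ P := fun h => hxN (H.hPN h)
      rw [if_neg hxP, if_neg hxN, extendByZero_of_not_mem]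
      · ring
      · intro h
        exact hxN (H.hTI x c c.2 hc1 h)
  rw [Finset.sum_congr rfl (fun x _ => h1 x), Finset.sum_add_distrib, sum_ite_mem, sum_ite_mem,
    H.hN, H.hP]
  have hp0 : (p : ℂ) ≠ 0 := by
    have hp : p.Prime := Fact.out
    exact_mod_cast hp.ne_zero
  push_cast
  field_simp
  ring

theorem ItoHyp.exc_apply_P (H : ItoHyp G α p P N) (μ : P →* ℂˣ) (c : P) (hc : c ≠ 1) :
    excChar α μ (c : G) = - ((μ c : ℂˣ) : ℂ) - (((μ c)⁻¹ : ℂˣ) : ℂ) := by
  unfold excChar chiP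
  simp only [Pi.add_apply, Pi.sub_apply]
  rw [H.theta_apply μ c hc, H.fixC_eq_zero _ (H.orderOf_eq c hc)]
  ring

theorem ItoHyp.exc_inj (H : ItoHyp G α p P N) (μ ν : P →* ℂˣ)
    (h : excChar α μ = excChar α ν) : ν = μ ∨ ν = μ⁻¹ := by
  have hp : p.Prime := Fact.out
  have hnt : Nontrivial P := by
    rw [← Finite.one_lt_card_iff_nontrivial, H.hP]
    exact hp.one_lt
  obtain ⟨c, hc⟩ := exists_ne (1 : P)
  have h1 := congrFun h (c : G)
  rw [H.exc_apply_P μ c hc, H.exc_apply_P ν c hc] at h1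
  set a := μ c with ha
  set b := ν c with hb
  have ha0 : (a : ℂ) ≠ 0 := a.ne_zero
  have hb0 : (b : ℂ) ≠ 0 := b.ne_zero
  have h2 : ((a : ℂ) - b) * ((a : ℂ) * b - 1) = 0 := by
    rw [Units.val_inv_eq_inv_val, Units.val_inv_eq_inv_val] at h1
    field_simp at h1
    linear_combination -h1
  rcases mul_eq_zero.1 h2 with h3 | h3
  · left
    apply hom_ext_of_prime H.hP c hc
    exact (Units.ext (sub_eq_zero.1 h3)).symm
  · right
    apply hom_ext_of_prime H.hP c hc
    rw [MonoidHom.inv_apply, ← ha, ← hb]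
    apply Units.ext
    rw [Units.val_inv_eq_inv_val]
    field_simp
    linear_combination h3

/-- there are at least `(p-1)/2` exceptional characters -/
theorem ItoHyp.exists_exc_set (H : ItoHyp G α p P N) :
    ∃ S : Finset (G → ℂ), (∀ X ∈ S, ∃ μ : P →* ℂˣ, μ ≠ 1 ∧ X = excChar α μ) ∧
      p - 1 ≤ 2 * S.card := by
  classical
  have : Fintype (P →* ℂˣ) := Fintype.ofFinite _
  refine ⟨(Finset.univ.filter fun μ : P →* ℂˣ => μ ≠ 1).image (excChar α), ?_, ?_⟩
  · intro X hX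
    obtain ⟨μ, hμ, rfl⟩ := Finset.mem_image.1 hX
    exact ⟨μ, (Finset.mem_filter.1 hμ).2, rfl⟩
  · have h1 : (Finset.univ.filter fun μ : P →* ℂˣ => μ ≠ 1).card = p - 1 := by
      rw [Finset.filter_ne' Finset.univ (1 : P →* ℂˣ), Finset.card_erase_of_mem (Finset.mem_univ _),
        Finset.card_univ, ← Nat.card_eq_fintype_card, card_hom_of_prime H.hP]
    rw [← h1]
    apply Finset.card_le_mul_card_image
    intro X hX
    obtain ⟨μ, -, rfl⟩ := Finset.mem_image.1 hX
    refine le_trans (Finset.card_le_card (t := {μ, μ⁻¹}) ?_) Finset.card_le_two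
    intro ν hν
    have h2 := (Finset.mem_filter.1 hν).2
    rcases H.exc_inj μ ν h2.symm with h3 | h3
    · simp [h3]
    · simp [h3]

end exc

end Cfsg.Agent.Lib.Helper63
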