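import Mathlib
import Cfsg.Prelude.Def_Characters
import Cfsg.Agent.Lib.Helper19.BSChar

set_option autoImplicit false

namespace Cfsg.Agent.Lib.Helper63

open Cfsg Cfsg.Agent.Lib.Helper20 Cfsg.Agent.Lib.Helper19
open scoped ComplexConjugate

section count

variable {G : Type*} [Group G] [Fintype G] {α : Type*} [Fintype α] [DecidableEq α] [MulAction G α]

/-- the elements sending `(a, b)` to `(u, v)` -/
def transp (G : Type*) [Group G] [Fintype G] {α : Type*} [DecidableEq α] [MulAction G α]
    (a b u v : α) : Finset G :=
  Finset.univ.filter fun x : G => x • a = u ∧ x • b = v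

theorem mem_transp {a b u v : α} {x : G} : x ∈ transp G a b u v ↔ x • a = u ∧ x • b = v := by
  simp [transp]

theorem card_transp (h2 : MulAction.IsMultiplyPretransitive G α 2) {a b : α} (hab : a ≠ b)
    {u v : α} (huv : u ≠ v) : (transp G a b u v).card = (transp G a b a b).card := by
  obtain ⟨g₀, h1, h3⟩ := MulAction.is_two_pretransitive_iff.1 h2 hab huv
  refine Finset.card_bij (fun x _ => g₀⁻¹ * x) ?_ ?_ ?_
  · intro x hx
    rw [mem_transp] at hx ⊢
    rw [mul_smul, mul_smul, hx.1, hx.2, inv_smul_eq_iff, inv_smul_eq_iff]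
    exact ⟨h1.symm, h3.symm⟩
  · intro x _ y _ hxy
    exact mul_left_cancel hxy
  · intro y hy
    rw [mem_transp] at hy
    refine ⟨g₀ * y, ?_, by group⟩
    rw [mem_transp, mul_smul, mul_smul, hy.1, hy.2]
    exact ⟨h1, h3⟩

theorem card_transp_pos (a b : α) : 0 < (transp G a b a b).card :=
  Finset.card_pos.2 ⟨1, by rw [mem_transp]; simp⟩

theorem card_filter_pair (h2 : MulAction.IsMultiplyPretransitive G α 2) {a b : α} (hab : a ≠ b)
    (Q : α → α → Prop) [DecidableRel Q] :
    (Finset.univ.filter fun x : G => Q (x • a) (x • b)).card =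
      (transp G a b a b).card *
        (Finset.univ.filter fun z : α × α => z.1 ≠ z.2 ∧ Q z.1 z.2).card := by
  rw [Finset.card_eq_sum_card_fiberwise (f := fun x : G => (x • a, x • b))
    (t := Finset.univ.filter fun z : α × α => z.1 ≠ z.2 ∧ Q z.1 z.2)]
  · rw [Finset.sum_congr rfl (g := fun _ => (transp G a b a b).card), Finset.sum_const,
      smul_eq_mul, mul_comm]
    intro z hz
    rw [Finset.mem_filter] at hz
    rw [← card_transp h2 hab hz.2.1]
    congr 1
    ext x
    simp only [Finset.mem_filter, Finset.mem_univ, true_and, mem_transp]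
    constructor
    · rintro ⟨_, h⟩
      rw [← h]
      exact ⟨rfl, rfl⟩
    · rintro ⟨h1, h3⟩
      refine ⟨by rw [h1, h3]; exact hz.2.2, by rw [h1, h3]⟩
  · intro x hx
    simp only [Finset.coe_filter, Finset.mem_univ, true_and, Set.mem_ofPred_eq] at hx ⊢
    exact ⟨fun h => hab (smul_left_cancel x h), hx⟩

/-- number of fixed points -/
def fixN (α : Type*) [Fintype α] [DecidableEq α] [MulAction G α] (g : G) : ℕ :=
  (Finset.univ.filter fun z : α => g • z = z).card

/-- number of ordered pairs of distinct fixed points -/
def fixPairs (α : Type*) [Fintype α] [DecidableEq α] [MulAction G α] (g : G) : ℕ :=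
  (Finset.univ.filter fun z : α × α => z.1 ≠ z.2 ∧ (g • z.1 = z.1 ∧ g • z.2 = z.2)).card

/-- number of ordered pairs of distinct points interchanged by `g` -/
def swapPairs (α : Type*) [Fintype α] [DecidableEq α] [MulAction G α] (g : G) : ℕ :=
  (Finset.univ.filter fun z : α × α => z.1 ≠ z.2 ∧ (g • z.1 = z.2 ∧ g • z.2 = z.1)).card

omit [Fintype G] in
theorem fixPairs_eq (g : G) : fixPairs α g = fixN α g * fixN α g - fixN α g := by
  unfold fixPairs fixN
  rw [← Finset.offDiag_card]
  congr 1
  ext z
  simp only [Finset.mem_filter, Finset.mem_univ, true_and, Finset.mem_offDiag]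
  tauto

theorem sum_fix_le {a b : α} (hab : a ≠ b) :
    (∑ g ∈ transp G a b b a, fixN α g) + 2 * (transp G a b a b).card ≤
      ∑ g ∈ transp G a b a b, fixN α g := by
  have hD : ∀ s : Finset G, ∑ g ∈ s, fixN α g = ∑ z : α, (s.filter fun g => g • z = z).card := by
    intro s
    unfold fixN
    simp_rw [Finset.card_filter]
    exact Finset.sum_comm
  have h2d : 2 * (transp G a b a b).card =
      ∑ z : α, ((if z = a then (transp G a b a b).card else 0) +
        (if z = b then (transp G a b a b).card else 0)) := by
    rw [Finset.sum_add_distrib, Finset.sum_ite_eq' Finset.univ a, Finset.sum_ite_eq' Finset.univ b]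
    simp [two_mul]
  rw [hD, hD, h2d, ← Finset.sum_add_distrib]
  apply Finset.sum_le_sum
  intro z _
  by_cases hza : z = a
  · subst hza
    rw [if_pos rfl, if_neg hab, add_zero]
    have h1 : ((transp G z b b z).filter fun g => g • z = z) = ∅ := by
      rw [Finset.filter_eq_empty_iff]
      intro g hg h
      rw [mem_transp] at hg
      exact hab (h.symm.trans hg.1)
    have h3 : ((transp G z b z b).filter fun g => g • z = z) = transp G z b z b := by
      rw [Finset.filter_eq_self]
      intro g hg
      rw [mem_transp] at hg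
      exact hg.1
    rw [h1, h3]
    simp
  · by_cases hzb : z = b
    · subst hzb
      rw [if_neg hza, if_pos rfl, zero_add]
      have h1 : ((transp G a z z a).filter fun g => g • z = z) = ∅ := by
        rw [Finset.filter_eq_empty_iff]
        intro g hg h
        rw [mem_transp] at hg
        exact hab (hg.2.symm.trans h)
      have h3 : ((transp G a z a z).filter fun g => g • z = z) = transp G a z a z := by
        rw [Finset.filter_eq_self]
        intro g hg
        rw [mem_transp] at hg
        exact hg.2
      rw [h1, h3]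
      simp
    · rw [if_neg hza, if_neg hzb, add_zero, add_zero]
      rcases ((transp G a b b a).filter fun g => g • z = z).eq_empty_or_nonempty with h | ⟨w, hw⟩
      · rw [h]
        simp
      · rw [Finset.mem_filter, mem_transp] at hw
        apply Finset.card_le_card_of_injOn (fun g => w⁻¹ * g)
        · intro g hg
          simp only [Finset.coe_filter, Set.mem_ofPred_eq, mem_transp] at hg ⊢
          refine ⟨⟨?_, ?_⟩, ?_⟩
          · rw [mul_smul, hg.1.1, inv_smul_eq_iff, hw.1.1]
          · rw [mul_smul, hg.1.2, inv_smul_eq_iff, hw.1.2]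
          · rw [mul_smul, hg.2, inv_smul_eq_iff, hw.2]
        · intro x _ y _ hxy
          exact mul_left_cancel hxy

end count

end Cfsg.Agent.Lib.Helper63
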