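import Cfsg.Agent.Lib.Helper63.Ito3

set_option autoImplicit false

namespace Cfsg.Agent.Lib.Helper63

open Cfsg Cfsg.Agent.Lib.Helper20 Cfsg.Agent.Lib.Helper19
open scoped ComplexConjugate

section pair

variable {G : Type*} [Group G] {α : Type*} [MulAction G α]

/-- the setwise stabiliser of `{a, b}` -/
def pairStab (G : Type*) [Group G] {α : Type*} [MulAction G α] (a b : α) : Subgroup G where
  carrier := {g | (g • a = a ∧ g • b = b) ∨ (g • a = b ∧ g • b = a)}
  one_mem' := Or.inl ⟨one_smul _ _, one_smul _ _⟩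
  mul_mem' := by
    rintro g h (⟨g1, g2⟩ | ⟨g1, g2⟩) (⟨h1, h2⟩ | ⟨h1, h2⟩)
    · exact Or.inl ⟨by rw [mul_smul, h1, g1], by rw [mul_smul, h2, g2]⟩
    · exact Or.inr ⟨by rw [mul_smul, h1, g2], by rw [mul_smul, h2, g1]⟩
    · exact Or.inr ⟨by rw [mul_smul, h1, g1], by rw [mul_smul, h2, g2]⟩
    · exact Or.inl ⟨by rw [mul_smul, h1, g2], by rw [mul_smul, h2, g1]⟩
  inv_mem' := by
    rintro g (⟨g1, g2⟩ | ⟨g1, g2⟩)
    · exact Or.inl ⟨by rw [inv_smul_eq_iff, g1], by rw [inv_smul_eq_iff, g2]⟩
    · exact Or.inr ⟨by rw [inv_smul_eq_iff, g2], by rw [inv_smul_eq_iff, g1]⟩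

theorem mem_pairStab {a b : α} {g : G} :
    g ∈ pairStab G a b ↔ (g • a = a ∧ g • b = b) ∨ (g • a = b ∧ g • b = a) := Iff.rfl

open Classical in
/-- the sign character of the setwise stabiliser of `{a, b}` -/
noncomputable def pairSgn {a b : α} (hab : a ≠ b) : pairStab G a b →* ℂˣ :=
  MonoidHom.mk' (fun g => if (g : G) • a = a then 1 else -1) (by
    rintro ⟨g, hg⟩ ⟨h, hh⟩
    change (if (g * h) • a = a then (1 : ℂˣ) else -1) =
      (if g • a = a then 1 else -1) * (if h • a = a then 1 else -1)
    rcases hg with ⟨g1, g2⟩ | ⟨g1, g2⟩ <;> rcases hh with ⟨h1, h2⟩ | ⟨h1, h2⟩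
    · rw [mul_smul, h1, g1]; simp
    · rw [mul_smul, h1, g2, g1, if_neg hab.symm, if_pos rfl]; simp
    · rw [mul_smul, h1, g1, if_neg hab.symm, if_pos rfl]; simp
    · rw [mul_smul, h1, g2, g1, if_pos rfl, if_neg hab.symm]; simp)

open Classical in
theorem pairSgn_fix {a b : α} (hab : a ≠ b) (g : pairStab G a b) (h : (g : G) • a = a) :
    pairSgn hab g = 1 := by
  change (if (g : G) • a = a then (1 : ℂˣ) else -1) = 1
  rw [if_pos h]

open Classical in
theorem pairSgn_swap {a b : α} (hab : a ≠ b) (g : pairStab G a b) (h : (g : G) • a = b) :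
    pairSgn hab g = -1 := by
  change (if (g : G) • a = a then (1 : ℂˣ) else -1) = -1
  rw [if_neg (by rw [h]; exact hab.symm)]

variable [DecidableEq α]

theorem ext_pairSgn {a b : α} (hab : a ≠ b) (g : G) :
    extendByZero (pairStab G a b) (homFun (pairSgn hab)) g =
      (if g • a = a ∧ g • b = b then 1 else 0) - (if g • a = b ∧ g • b = a then 1 else 0) := by
  by_cases h1 : g • a = a ∧ g • b = b
  · have hm : g ∈ pairStab G a b := Or.inl h1
    rw [extendByZero_of_mem _ _ hm, homFun_apply, pairSgn_fix hab ⟨g, hm⟩ h1.1, if_pos h1,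
      if_neg (by rintro ⟨h, _⟩; exact hab (h1.1.symm.trans h))]
    simp
  · by_cases h3 : g • a = b ∧ g • b = a
    · have hm : g ∈ pairStab G a b := Or.inr h3
      rw [extendByZero_of_mem _ _ hm, homFun_apply, pairSgn_swap hab ⟨g, hm⟩ h3.1, if_neg h1,
        if_pos h3]
      simp
    · have hm : g ∉ pairStab G a b := by
        rintro (h | h)
        · exact h1 h
        · exact h3 h
      rw [extendByZero_of_not_mem _ _ hm, if_neg h1, if_neg h3]
      simp

end pair

section phi

variable {G : Type*} [Group G] [Fintype G] {α : Type*} [Fintype α] [DecidableEq α] [MulAction G α]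

theorem card_pairStab (h2 : MulAction.IsMultiplyPretransitive G α 2) {a b : α} (hab : a ≠ b) :
    Nat.card (pairStab G a b) = 2 * (transp G a b a b).card := by
  classical
  rw [Nat.card_eq_fintype_card, Fintype.card_subtype]
  have h1 : (Finset.univ.filter fun x : G => x ∈ pairStab G a b) =
      transp G a b a b ∪ transp G a b b a := by
    ext x
    simp only [Finset.mem_filter, Finset.mem_univ, true_and, Finset.mem_union, mem_transp,
      mem_pairStab]
  rw [h1, Finset.card_union_of_disjoint, card_transp h2 hab hab.symm, two_mul]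
  rw [Finset.disjoint_left]
  intro x hx hx'
  rw [mem_transp] at hx hx'
  exact hab (hx.1.symm.trans hx'.1)

/-- the values of the induced sign character -/
theorem indFun_pairSgn (h2 : MulAction.IsMultiplyPretransitive G α 2) {a b : α} (hab : a ≠ b)
    (g : G) : 2 * indFun (pairStab G a b) (homFun (pairSgn hab)) g =
      (fixPairs α g : ℂ) - (swapPairs α g : ℂ) := by
  rw [indFun_apply, card_pairStab h2 hab]
  have h1 : ∀ x : G, extendByZero (pairStab G a b) (homFun (pairSgn hab)) (x⁻¹ * g * x) =
      (if g • (x • a) = x • a ∧ g • (x • b) = x • b then 1 else 0) -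
      (if g • (x • a) = x • b ∧ g • (x • b) = x • a then 1 else 0) := by
    intro x
    rw [ext_pairSgn]
    simp only [mul_smul, inv_smul_eq_iff]
  rw [Finset.sum_congr rfl (fun x _ => h1 x), Finset.sum_sub_distrib, Finset.sum_boole,
    Finset.sum_boole,
    card_filter_pair h2 hab (fun u v => g • u = u ∧ g • v = v),
    card_filter_pair h2 hab (fun u v => g • u = v ∧ g • v = u)]
  have hd : ((transp G a b a b).card : ℂ) ≠ 0 := by
    exact_mod_cast (card_transp_pos a b).ne'
  unfold fixPairs swapPairs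
  push_cast
  field_simp

/-- inner product of the induced sign character with `fix - k` -/
theorem inner_indFun_pairSgn_ne_zero (h2 : MulAction.IsMultiplyPretransitive G α 2) {a b : α}
    (hab : a ≠ b) (ψ : G → ℂ) (hψ : IsClassFunction G ψ) (k : ℕ)
    (hk : ∀ g ∈ pairStab G a b, ψ g = (fixN α g : ℂ) - k) :
    classInner (indFun (pairStab G a b) (homFun (pairSgn hab))) ψ ≠ 0 := by
  classical
  have : Fintype (pairStab G a b) := Fintype.ofFinite _
  rw [frobenius_reciprocity _ _ _ hψ]
  unfold classInner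
  apply mul_ne_zero (inv_ne_zero (card_ne_zero_complex _))
  rw [← sum_extendByZero_mul (pairStab G a b) (homFun (pairSgn hab)) (fun g => conj (ψ g))]
  have h1 : ∀ g : G, extendByZero (pairStab G a b) (homFun (pairSgn hab)) g * conj (ψ g) =
      (if g • a = a ∧ g • b = b then ((fixN α g : ℂ) - k) else 0) -
      (if g • a = b ∧ g • b = a then ((fixN α g : ℂ) - k) else 0) := by
    intro g
    rw [ext_pairSgn]
    by_cases hg : g ∈ pairStab G a b
    · rw [hk g hg]
      simp only [map_sub, map_natCast]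
      split_ifs <;> ring
    · have h3 : ¬ (g • a = a ∧ g • b = b) := fun h => hg (Or.inl h)
      have h4 : ¬ (g • a = b ∧ g • b = a) := fun h => hg (Or.inr h)
      rw [if_neg h3, if_neg h4, if_neg h3, if_neg h4]
      ring
  rw [Finset.sum_congr rfl (fun g _ => h1 g), Finset.sum_sub_distrib, ← Finset.sum_filter,
    ← Finset.sum_filter]
  change ∑ g ∈ transp G a b a b, ((fixN α g : ℂ) - k) - ∑ g ∈ transp G a b b a, ((fixN α g : ℂ) - k)
    ≠ 0
  rw [Finset.sum_sub_distrib, Finset.sum_sub_distrib, Finset.sum_const, Finset.sum_const,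
    card_transp h2 hab hab.symm]
  have h5 := sum_fix_le (G := G) hab
  have h6 := card_transp_pos (G := G) a b
  intro h7
  have h8 : ((∑ g ∈ transp G a b a b, fixN α g : ℕ) : ℂ) =
      ((∑ g ∈ transp G a b b a, fixN α g : ℕ) : ℂ) := by
    push_cast
    linear_combination h7
  have h9 : (∑ g ∈ transp G a b a b, fixN α g) = ∑ g ∈ transp G a b b a, fixN α g := by
    exact_mod_cast h8
  omega

end phi

end Cfsg.Agent.Lib.Helper63
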