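import Cfsg.Agent.Lib.Helper63.Ito2
import Cfsg.Agent.Lib.Helper63.Ito4

set_option autoImplicit false

namespace Cfsg.Agent.Lib.Helper63

open Cfsg Cfsg.Agent.Lib.Helper20 Cfsg.Agent.Lib.Helper32 Cfsg.Agent.Lib.Helper19
open scoped ComplexConjugate

section main

variable {G : Type*} [Group G] [Fintype G] {α : Type*} [Fintype α] [DecidableEq α] [MulAction G α]
  {p : ℕ} [Fact p.Prime] {P N : Subgroup G}

omit [Fintype G] in
theorem fixC_eq_fixN (g : G) : fixC α g = (fixN α g : ℂ) := by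
  unfold fixC fixN
  congr 1
  rw [Nat.card_coe_set_eq, ← Set.ncard_coe_finset]
  congr 1
  ext z
  simp [MulAction.mem_fixedBy]

omit [Fintype G] in
theorem fixN_one (hα : Fintype.card α = p) : fixN α (1 : G) = p := by
  unfold fixN
  simp [hα]

omit [Fintype G] in
theorem swapPairs_one : swapPairs α (1 : G) = 0 := by
  unfold swapPairs
  rw [Finset.card_eq_zero, Finset.filter_eq_empty_iff]
  rintro z - ⟨h1, h2, -⟩
  rw [one_smul] at h2
  exact h1 h2

/-- Ito's identity: for every element of order different from `p` -/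
theorem ItoHyp.identity (H : ItoHyp G α p P N) (g : G) (hg : orderOf g ≠ p) :
    (fixPairs α g : ℤ) - swapPairs α g =
      2 * ((fixN α g : ℤ) - 1) + ((p : ℤ) - 1) * ((fixN α g : ℤ) - 2) := by
  classical
  have hp : p.Prime := Fact.out
  have hp2 := H.hp
  have hnt : Nontrivial α := Fintype.one_lt_card_iff_nontrivial.1 (by rw [H.hα]; exact hp.one_lt)
  obtain ⟨a, b, hab⟩ := exists_pair_ne α
  set Φ := indFun (pairStab G a b) (homFun (pairSgn hab)) with hΦ
  have hΦc : IsCharacter G Φ := isCharacter_indFun _ _ (isCharacter_homFun _).1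
  obtain ⟨S, hS, hScard⟩ := H.exists_exc_set
  have hord : ∀ x ∈ pairStab G a b, orderOf x ≠ p := by
    intro x hx hxp
    rcases hx with ⟨h1, _⟩ | ⟨h1, h2⟩
    · exact H.hfix x hxp a h1
    · have h3 : orderOf (x ^ 2) = p := by
        rw [Nat.Coprime.orderOf_pow, hxp]
        rw [hxp]
        exact (Nat.coprime_primes hp Nat.prime_two).2 (by omega)
      exact H.hfix (x ^ 2) h3 a (by rw [sq, mul_smul, h1, h2])
  have hχ := H.isIrr_chiP
  have hχS : chiP α ∉ S := by
    intro h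
    obtain ⟨μ, _, hX⟩ := hS _ h
    have h1 := congrFun hX 1
    rw [H.exc_one] at h1
    unfold chiP at h1
    rw [fixC_one H.hα] at h1
    have : (1 : ℂ) = 2 := by linear_combination -h1
    norm_num at this
  have hTirr : ∀ X ∈ insert (chiP α) S, IsIrrCharacter G X := by
    intro X hX
    rcases Finset.mem_insert.1 hX with rfl | hX
    · exact hχ
    · obtain ⟨μ, hμ, rfl⟩ := hS X hX
      exact H.isIrr_exc μ hμ
  have hTne : ∀ X ∈ insert (chiP α) S, classInner Φ X ≠ 0 := by
    intro X hX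
    have hcl := isClassFunction_of_isCharacter (isCharacter_of_isIrrCharacter (hTirr X hX))
    rcases Finset.mem_insert.1 hX with rfl | hX
    · exact inner_indFun_pairSgn_ne_zero H.h2 hab _ hcl 1 (fun x _ => by
        unfold chiP
        rw [fixC_eq_fixN]
        simp)
    · obtain ⟨μ, hμ, rfl⟩ := hS X hX
      exact inner_indFun_pairSgn_ne_zero H.h2 hab _ hcl 2 (fun x hx => by
        rw [H.exc_apply μ x (hord x hx), fixC_eq_fixN]
        simp)
  have hΨ := isCharacter_sub_sum hΦc _ hTirr hTne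
  obtain ⟨n, hn⟩ := isCharacter_apply_one hΨ
  have hval : ∀ x : G, orderOf x ≠ p → (∑ X ∈ insert (chiP α) S, X) x =
      ((fixN α x : ℂ) - 1) + S.card * ((fixN α x : ℂ) - 2) := by
    intro x hx
    rw [Finset.sum_insert hχS, Pi.add_apply, Finset.sum_apply,
      Finset.sum_congr rfl (g := fun _ => (fixN α x : ℂ) - 2)]
    · simp [chiP, fixC_eq_fixN]
      ring
    · intro X hX
      obtain ⟨μ, _, rfl⟩ := hS X hX
      rw [H.exc_apply μ x hx, fixC_eq_fixN]
  have hone : orderOf (1 : G) ≠ p := by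
    rw [orderOf_one]
    omega
  have hΦ1 := indFun_pairSgn H.h2 hab (1 : G)
  rw [← hΦ, fixPairs_eq, swapPairs_one, fixN_one H.hα] at hΦ1
  rw [Pi.sub_apply, hval 1 hone, fixN_one H.hα] at hn
  have hle : p ≤ p * p := Nat.le_mul_self p
  rw [Nat.cast_sub hle] at hΦ1
  have e1 : ((p : ℤ) * p - p) - 2 * ((p : ℤ) - 1) - 2 * (S.card : ℤ) * ((p : ℤ) - 2) = 2 * n := by
    have : (((p : ℤ) * p - p) - 2 * ((p : ℤ) - 1) - 2 * (S.card : ℤ) * ((p : ℤ) - 2) : ℂ) =
        2 * n := by
      push_cast at hΦ1 ⊢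
      linear_combination -hΦ1 + 2 * hn
    exact_mod_cast this
  have e2 : (p : ℤ) - 1 ≤ 2 * (S.card : ℤ) := by
    have : ((p - 1 : ℕ) : ℤ) ≤ ((2 * S.card : ℕ) : ℤ) := by exact_mod_cast hScard
    rw [Nat.cast_sub hp.one_lt.le] at this
    push_cast at this
    exact this
  have e3 : (3 : ℤ) ≤ p := by exact_mod_cast hp2
  have e4 : (0 : ℤ) ≤ n := by positivity
  have e5 : (n : ℤ) = 0 := by nlinarith
  have e6 : 2 * (S.card : ℤ) = (p : ℤ) - 1 := by
    rw [e5] at e1
    have : ((p : ℤ) - 2) * ((p : ℤ) - 1 - 2 * (S.card : ℤ)) = 0 := by linear_combination e1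
    rcases mul_eq_zero.1 this with h | h
    · omega
    · omega
  have hn0 : n = 0 := by exact_mod_cast e5
  have hΨ0 := Cfsg.Agent.Lib.Helper82.isChar_eq_zero_of_one_eq_zero hΨ (by
    rw [Pi.sub_apply, hval 1 hone, fixN_one H.hα, hn, hn0]
    simp)
  have h7 := congrFun hΨ0 g
  rw [Pi.sub_apply, hval g hg, Pi.zero_apply] at h7
  have h8 := indFun_pairSgn H.h2 hab g
  rw [← hΦ] at h8
  have e6' : 2 * (S.card : ℂ) = (p : ℂ) - 1 := by exact_mod_cast e6
  have : ((fixPairs α g : ℤ) - swapPairs α g : ℂ) =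
      2 * ((fixN α g : ℤ) - 1) + ((p : ℤ) - 1) * ((fixN α g : ℤ) - 2) := by
    push_cast
    linear_combination -h8 + 2 * h7 + ((fixN α g : ℂ) - 2) * e6'
  exact_mod_cast this

end main

end Cfsg.Agent.Lib.Helper63
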