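import Cfsg.Agent.Lib.Helper63.Ito5
import Cfsg.Agent.Lib.Helper63.Neumann2

set_option autoImplicit false

namespace Cfsg.Agent.Lib.Helper63

open Cfsg MulAction

section cor

variable {G : Type*} [Group G] [Fintype G] {α : Type*} [Fintype α] [DecidableEq α] [MulAction G α]
  {p : ℕ} [Fact p.Prime] {P N : Subgroup G}

theorem ItoHyp.orderOf_ne (H : ItoHyp G α p P N) (g : G) (h : 0 < fixN α g) : orderOf g ≠ p := by
  intro hg
  have : fixN α g = 0 := by
    unfold fixN
    rw [Finset.card_eq_zero, Finset.filter_eq_empty_iff]
    intro z _ hz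
    exact H.hfix g hg z hz
  omega

/-- an element with three fixed points fixes everything -/
theorem ItoHyp.fixN_eq (H : ItoHyp G α p P N) (g : G) (h3 : 3 ≤ fixN α g) : fixN α g = p := by
  have h1 := H.identity g (H.orderOf_ne g (by omega))
  rw [fixPairs_eq, Nat.cast_sub (Nat.le_mul_self _)] at h1
  push_cast at h1
  have hle : fixN α g ≤ p := by
    unfold fixN
    rw [← H.hα]
    exact Finset.card_le_univ _
  by_contra hne
  have hlt : (fixN α g : ℤ) < p := by
    have : fixN α g < p := lt_of_le_of_ne hle hne
    exact_mod_cast this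
  have h0 : (0 : ℤ) ≤ swapPairs α g := by positivity
  have h3' : (3 : ℤ) ≤ fixN α g := by exact_mod_cast h3
  nlinarith [mul_pos (show (0 : ℤ) < (fixN α g : ℤ) - 2 by linarith)
    (show (0 : ℤ) < (p : ℤ) - fixN α g by linarith)]

/-- an element with exactly one fixed point is an involution -/
theorem ItoHyp.sq_of_fixN_one (H : ItoHyp G α p P N) (g : G) (h1 : fixN α g = 1) :
    ∀ z : α, g • g • z = z := by
  have hp : p.Prime := Fact.out
  have h2 := H.identity g (H.orderOf_ne g (by omega))
  rw [fixPairs_eq, h1] at h2
  have h3 : (swapPairs α g : ℤ) = (p : ℤ) - 1 := by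
    push_cast at h2
    linarith
  have h4 : swapPairs α g ≤ (Finset.univ.filter fun u : α => g • u ≠ u ∧ g • g • u = u).card := by
    unfold swapPairs
    apply Finset.card_le_card_of_injOn Prod.fst
    · intro z hz
      simp only [Finset.coe_filter, Finset.mem_univ, true_and, Set.mem_ofPred_eq] at hz ⊢
      obtain ⟨hz1, hz2, hz3⟩ := hz
      exact ⟨by rw [hz2]; exact hz1.symm, by rw [hz2, hz3]⟩
    · intro z hz z' hz' hzz
      simp only [Finset.coe_filter, Finset.mem_univ, true_and, Set.mem_ofPred_eq] at hz hz'
      apply Prod.ext hzz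
      rw [← hz.2.1, ← hz'.2.1, hzz]
  have h5 : Disjoint (Finset.univ.filter fun u : α => g • u ≠ u ∧ g • g • u = u)
      (Finset.univ.filter fun u : α => g • u = u) := by
    rw [Finset.disjoint_left]
    intro u hu hu'
    rw [Finset.mem_filter] at hu hu'
    exact hu.2.1 hu'.2
  have h6 : (Finset.univ.filter fun u : α => g • u ≠ u ∧ g • g • u = u) ∪
      (Finset.univ.filter fun u : α => g • u = u) ⊆ Finset.univ.filter fun u : α => g • g • u = u := by
    intro u hu
    rw [Finset.mem_union, Finset.mem_filter, Finset.mem_filter] at hu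
    rw [Finset.mem_filter]
    rcases hu with hu | hu
    · exact ⟨Finset.mem_univ _, hu.2.2⟩
    · exact ⟨Finset.mem_univ _, by rw [hu.2, hu.2]⟩
  have h7 := Finset.card_le_card h6
  rw [Finset.card_union_of_disjoint h5] at h7
  have h8 : (Finset.univ.filter fun u : α => g • u = u).card = 1 := h1
  have h9 : swapPairs α g = p - 1 := by
    have := hp.one_lt
    omega
  have h10 : (Finset.univ.filter fun u : α => g • g • u = u) = Finset.univ := by
    apply Finset.eq_univ_of_card
    have h11 := Finset.card_le_univ (Finset.univ.filter fun u : α => g • g • u = u)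
    rw [H.hα] at h11 ⊢
    have := hp.one_lt
    omega
  intro z
  have : z ∈ Finset.univ.filter fun u : α => g • g • u = u := by
    rw [h10]
    exact Finset.mem_univ _
  exact (Finset.mem_filter.1 this).2

theorem ItoHyp.card_eq (H : ItoHyp G α p P N) {a b : α} (hab : a ≠ b) :
    Fintype.card G = (transp G a b a b).card * (p * p - p) := by
  have h1 := card_filter_pair (G := G) H.h2 hab (fun _ _ => True)
  simp only [Finset.filter_true, and_true] at h1
  rw [Finset.card_univ] at h1
  rw [h1]
  congr 1
  have h2 : (Finset.univ.filter fun z : α × α => z.1 ≠ z.2) = (Finset.univ : Finset α).offDiag := by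
    ext z
    simp
  rw [h2, Finset.offDiag_card, Finset.card_univ, H.hα]

end cor

end Cfsg.Agent.Lib.Helper63
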