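import Mathlib
import Cfsg.Prelude
import Cfsg.Agent.Lib.Helper63.Kazarin2
import Cfsg.Agent.Lib.Helper31.CNSolv
import Cfsg.Agent.Lib.Helper1.Cores
import Cfsg.Agent.S1264

/-!
Consequences of Kazarin's theorem: commutators of conjugates of an element with a class of
`p`-power size lie in `O_p(G)`.
-/

set_option autoImplicit false
open Cfsg

namespace Cfsg.Agent.Lib.Helper63

universe u

theorem pCore_le_centralizer {G : Type*} [Group G] [Finite G] {p q k : ℕ} (hp : p.Prime)
    (hq : q.Prime) (hpq : p ≠ q) (x : G)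
    (hx : (Subgroup.centralizer ({x} : Set G)).index = p ^ k) :
    Cfsg.pCore q G ≤ Subgroup.centralizer ({x} : Set G) := by
  have := Fact.mk hq
  rw [← Subgroup.relIndex_eq_one]
  have h1 := relIndex_dvd_index_of_normal_right (Subgroup.centralizer ({x} : Set G))
    (Cfsg.pCore q G)
  have h2 : (Subgroup.centralizer ({x} : Set G)).relIndex (Cfsg.pCore q G)
      ∣ Nat.card (Cfsg.pCore q G) := Subgroup.index_dvd_card _
  obtain ⟨n, hn⟩ := IsPGroup.iff_card.1 (Cfsg.Agent.Lib.Helper1.pCore_isPGroup q G)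
  rw [hx] at h1
  rw [hn] at h2
  have hcop : Nat.Coprime (p ^ k) (q ^ n) :=
    Nat.Coprime.pow _ _ ((Nat.coprime_primes hp hq).2 hpq)
  exact Nat.eq_one_of_dvd_coprimes hcop h1 h2

theorem commute_conj_of_pCore_eq_bot {G : Type u} [Group G] [Finite G] {p k : ℕ} (hp : p.Prime)
    (x : G) (hx : (Subgroup.centralizer ({x} : Set G)).index = p ^ k)
    (hO : Cfsg.pCore p G = ⊥) (g h : G) : Commute (g * x * g⁻¹) (h * x * h⁻¹) := by
  have hsol := kazarin hp x k hx
  have hFn : (Cfsg.fittingSubgroup G).Normal := Subgroup.sSup_normal _ (fun _ hH => hH.1)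
  have hF : Cfsg.fittingSubgroup G ≤ Subgroup.centralizer ({x} : Set G) := by
    rw [Cfsg.Agent.Lib.Helper1.fitting_eq_iSup_pCore]
    apply iSup_le
    intro r
    by_cases hr : p = (r : ℕ)
    · rw [← hr, hO]; exact bot_le
    · exact pCore_le_centralizer hp r.2 hr x hx
  have hN : Subgroup.normalClosure ({x} : Set G)
      ≤ Subgroup.centralizer (Cfsg.fittingSubgroup G : Set G) := by
    apply normalClosure_singleton_le
    intro a
    rw [Subgroup.mem_centralizer_iff]
    intro f hf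
    have h1 : a⁻¹ * f * a ∈ Cfsg.fittingSubgroup G := by
      have := hFn.conj_mem f hf a⁻¹
      simpa using this
    have h2 := hF h1
    rw [Subgroup.mem_centralizer_singleton_iff] at h2
    calc f * (a * x * a⁻¹) = a * ((a⁻¹ * f * a) * x) * a⁻¹ := by group
      _ = a * (x * (a⁻¹ * f * a)) * a⁻¹ := by rw [h2]
      _ = a * x * a⁻¹ * f := by group
  have hnorm : Subgroup.centralizer (Cfsg.fittingSubgroup G : Set G)
      ≤ Subgroup.normalizer (Subgroup.normalClosure ({x} : Set G) : Set G) := by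
    rw [Subgroup.normalizer_eq_top]
    exact le_top
  have hZ := Cfsg.Agent.S1264.result _ hN hnorm hsol
  have hmem : ∀ a : G, a * x * a⁻¹ ∈ Subgroup.normalClosure ({x} : Set G) := fun a =>
    Subgroup.normalClosure_normal.conj_mem x
      (Subgroup.subset_normalClosure (Set.mem_singleton x)) a
  obtain ⟨a', ha', hga⟩ := Subgroup.mem_map.1 (hZ (hmem g))
  obtain ⟨b', -, hhb⟩ := Subgroup.mem_map.1 (hZ (hmem h))
  rw [← hga, ← hhb]
  rw [Subgroup.mem_center_iff] at ha'
  have := congrArg Subtype.val (ha' b')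
  exact this.symm

theorem commutator_conj_mem_pCore {G : Type u} [Group G] [Finite G] {p k : ℕ} (hp : p.Prime)
    (x : G) (hx : (Subgroup.centralizer ({x} : Set G)).index = p ^ k) (g h : G) :
    (g * x * g⁻¹) * (h * x * h⁻¹) * (g * x * g⁻¹)⁻¹ * (h * x * h⁻¹)⁻¹ ∈ Cfsg.pCore p G := by
  set π := QuotientGroup.mk' (Cfsg.pCore p G) with hπ
  have hle : (Subgroup.centralizer ({x} : Set G)).map π
      ≤ Subgroup.centralizer ({π x} : Set (G ⧸ Cfsg.pCore p G)) := by
    rintro _ ⟨c, hc, rfl⟩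
    have hc' : c ∈ Subgroup.centralizer ({x} : Set G) := hc
    rw [Subgroup.mem_centralizer_singleton_iff] at hc' ⊢
    rw [← map_mul, ← map_mul, hc']
  have hdvd : (Subgroup.centralizer ({π x} : Set (G ⧸ Cfsg.pCore p G))).index ∣ p ^ k := by
    rw [← hx]
    exact (Subgroup.index_dvd_of_le hle).trans
      (Subgroup.index_map_dvd _ (QuotientGroup.mk'_surjective _))
  obtain ⟨j, -, hj⟩ := (Nat.dvd_prime_pow hp).1 hdvd
  have hc := commute_conj_of_pCore_eq_bot hp (π x) hj
    (Cfsg.Agent.Lib.Helper31.pCore_quotient_pCore p) (π g) (π h)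
  rw [← QuotientGroup.ker_mk' (Cfsg.pCore p G), MonoidHom.mem_ker]
  simp only [map_mul, map_inv]
  rw [← hπ, hc.eq, mul_assoc _ _ (π g * π x * (π g)⁻¹)⁻¹, mul_inv_cancel, mul_one, mul_inv_cancel]

end Cfsg.Agent.Lib.Helper63
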