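import Mathlib

set_option autoImplicit false

namespace Cfsg.Agent.Lib.Helper63

open Polynomial

theorem sum_pow_eq {K : Type*} [Field K] [Fintype K] [DecidableEq K] (i : ℕ) (hi : i ≠ 0) :
    ∑ x : K, x ^ i = if Fintype.card K - 1 ∣ i then -1 else 0 := by
  let φ : Kˣ ↪ K := ⟨fun x ↦ x, Units.val_injective⟩
  have : Finset.univ.map φ = Finset.univ \ {0} := by
    ext x
    simpa only [Finset.mem_map, Finset.mem_univ, Function.Embedding.coeFn_mk, true_and,
      Finset.mem_sdiff, Finset.mem_singleton, φ] using! isUnit_iff_ne_zero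
  calc
    ∑ x : K, x ^ i = ∑ x ∈ Finset.univ \ {(0 : K)}, x ^ i := by
      rw [← Finset.sum_sdiff ({0} : Finset K).subset_univ, Finset.sum_singleton, zero_pow hi,
        add_zero]
    _ = ∑ x : Kˣ, (x ^ i : K) := by simp [φ, ← this, Finset.univ.sum_map φ]
    _ = _ := FiniteField.sum_pow_units K i

theorem sum_pow_mul_sub_pow {K : Type*} [Field K] [Fintype K] [DecidableEq K] (m k : ℕ)
    (hk : k ≤ m) (hm : m < Fintype.card K - 1) (z : K) :
    ∑ w : K, w ^ (Fintype.card K - 1 - (m - k)) * (z - w) ^ m =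
      -((-1) ^ (m - k) * (m.choose k : K) * z ^ k) := by
  have h1 : ∀ w : K, w ^ (Fintype.card K - 1 - (m - k)) * (z - w) ^ m =
      ∑ j ∈ Finset.range (m + 1), z ^ j * (-1) ^ (m - j) * (m.choose j : K) *
        w ^ (Fintype.card K - 1 - (m - k) + (m - j)) := by
    intro w
    rw [sub_eq_add_neg, add_pow, Finset.mul_sum]
    apply Finset.sum_congr rfl
    intro j _
    rw [neg_pow w, pow_add]
    ring
  rw [Finset.sum_congr rfl (fun w _ => h1 w), Finset.sum_comm]
  simp_rw [← Finset.mul_sum]
  rw [Finset.sum_eq_single k]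
  · rw [sum_pow_eq _ (by omega), if_pos]
    · ring
    · have : Fintype.card K - 1 - (m - k) + (m - k) = Fintype.card K - 1 := by omega
      rw [this]
  · intro j hj hjk
    rw [Finset.mem_range] at hj
    rw [sum_pow_eq _ (by omega), if_neg, mul_zero]
    rintro ⟨c, hc⟩
    have hc1 : c ≠ 1 := by
      rintro rfl
      omega
    have hc0 : c ≠ 0 := by
      rintro rfl
      omega
    have hc2 : 2 ≤ c := by omega
    have : (Fintype.card K - 1) * 2 ≤ (Fintype.card K - 1) * c := Nat.mul_le_mul_left _ hc2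
    omega
  · intro h
    exact absurd (Finset.mem_range.mpr (by omega)) h

theorem choose_ne_zero_zmod (p : ℕ) [Fact p.Prime] (m k : ℕ) (hk : k ≤ m) (hm : m < p) :
    (m.choose k : ZMod p) ≠ 0 := by
  intro h
  rw [ZMod.natCast_eq_zero_iff] at h
  have hp : p.Prime := Fact.out
  have h2 : p ∣ m.factorial := by
    rw [← Nat.choose_mul_factorial_mul_factorial hk]
    exact Dvd.dvd.mul_right (Dvd.dvd.mul_right h _) _
  have := (hp.dvd_factorial).mp h2
  omega

/-- McConnel's theorem over a prime field. -/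
theorem mcconnel_prime (p : ℕ) [Fact p.Prime] (m : ℕ) (hm1 : 1 ≤ m) (hm2 : 2 * m ≤ p - 1)
    (σ : Equiv.Perm (ZMod p)) (h : ∀ x y, (σ x - σ y) ^ m = (x - y) ^ m) :
    ∃ a b : ZMod p, ∀ x, σ x = a * x + b := by
  classical
  have hcard : Fintype.card (ZMod p) = p := ZMod.card p
  let P : ℕ → (ZMod p)[X] := fun k =>
    C ((-((-1) ^ (m - k) * (m.choose k : ZMod p)))⁻¹) *
      ∑ y : ZMod p, C (σ y ^ (p - 1 - (m - k))) * (X - C y) ^ m
  have hPdeg : ∀ k, (P k).natDegree ≤ m := by
    intro k
    refine (natDegree_C_mul_le _ _).trans ?_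
    apply natDegree_sum_le_of_forall_le
    intro y _
    refine (natDegree_C_mul_le _ _).trans ?_
    refine (natDegree_pow_le).trans ?_
    rw [natDegree_X_sub_C, mul_one]
  have hPeval : ∀ k, k ≤ m → ∀ x, (P k).eval x = σ x ^ k := by
    intro k hk x
    have hne : (-((-1) ^ (m - k) * (m.choose k : ZMod p))) ≠ 0 := by
      rw [neg_ne_zero]
      apply mul_ne_zero
      · exact pow_ne_zero _ (neg_ne_zero.mpr one_ne_zero)
      · exact choose_ne_zero_zmod p m k hk (by omega)
    simp only [P, eval_mul, eval_C, eval_finsetSum, eval_pow, eval_sub, eval_X]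
    have e1 : ∑ y : ZMod p, σ y ^ (p - 1 - (m - k)) * (x - y) ^ m =
        ∑ w : ZMod p, w ^ (p - 1 - (m - k)) * (σ x - w) ^ m := by
      rw [← Equiv.sum_comp σ (fun w => w ^ (p - 1 - (m - k)) * (σ x - w) ^ m)]
      apply Finset.sum_congr rfl
      intro y _
      rw [h x y]
    have e2 := sum_pow_mul_sub_pow (K := ZMod p) m k hk (by rw [hcard]; omega) (σ x)
    rw [hcard] at e2
    rw [e1, e2]
    have : -((-1) ^ (m - k) * (m.choose k : ZMod p) * σ x ^ k) =
        (-((-1) ^ (m - k) * (m.choose k : ZMod p))) * σ x ^ k := by ring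
    rw [this, ← mul_assoc, inv_mul_cancel₀ hne, one_mul]
  have hf : ∀ x, (P 1).eval x = σ x := fun x => by rw [hPeval 1 hm1 x, pow_one]
  have hpow : ∀ i, i ≤ m → (P 1).natDegree * i ≤ p - 1 → (P 1).natDegree * i ≤ m := by
    intro i hi hle
    have hzero : (P 1) ^ i - P i = 0 := by
      apply eq_zero_of_natDegree_lt_card_of_eval_eq_zero' _ Finset.univ
      · intro x _
        rw [eval_sub, eval_pow, hf, hPeval i hi, sub_self]
      · rw [Finset.card_univ, hcard]
        have h1 : ((P 1) ^ i - P i).natDegree ≤ max ((P 1) ^ i).natDegree (P i).natDegree :=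
          natDegree_sub_le _ _
        have h2 : ((P 1) ^ i).natDegree = i * (P 1).natDegree := natDegree_pow _ _
        have h3 := hPdeg i
        have h4 : 0 < p := (Fact.out : p.Prime).pos
        rw [h2] at h1
        have h5 : max (i * (P 1).natDegree) (P i).natDegree ≤ p - 1 := by
          apply max_le
          · rw [mul_comm]; exact hle
          · omega
        omega
    have heq : (P 1) ^ i = P i := sub_eq_zero.mp hzero
    have h2 : ((P 1) ^ i).natDegree = i * (P 1).natDegree := natDegree_pow _ _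
    rw [heq] at h2
    rw [mul_comm, ← h2]
    exact hPdeg i
  have he : (P 1).natDegree ≤ 1 := by
    by_contra hcon
    push Not at hcon
    have hem := hPdeg 1
    set e := (P 1).natDegree with he
    have hm2' : 2 ≤ m := by omega
    have hdiv : m / e ≤ m / 2 := Nat.div_le_div_left (by omega) (by omega)
    have hi : m / e + 1 ≤ m := by omega
    have hmod := Nat.div_add_mod m e
    have hmodlt : m % e < e := Nat.mod_lt _ (by omega)
    have hexp : e * (m / e + 1) = e * (m / e) + e := by ring
    have h1 := hpow (m / e + 1) hi (by omega)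
    omega
  refine ⟨(P 1).coeff 1, (P 1).coeff 0, fun x => ?_⟩
  rw [← hf x]
  conv_lhs => rw [eq_X_add_C_of_natDegree_le_one he]
  simp

end Cfsg.Agent.Lib.Helper63
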