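import Mathlib

set_option autoImplicit false

/-!
# Schur's method for permutation groups containing a regular abelian subgroup

`H` is a finite additive commutative group, `G` a group of permutations of `H` containing all
translations.  A set is `SInv` if it is invariant under the stabiliser of `0`.
-/

namespace Cfsg.Agent.Lib.Helper63

open MulAction
open scoped Pointwise

variable {H : Type*} [AddCommGroup H] (G : Subgroup (Equiv.Perm H))

/-- `G` contains all translations. -/
def HasTranslations : Prop := ∀ a : H, Equiv.addRight a ∈ G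

/-- invariance of a set under the stabiliser of `0`. -/
def SInv (T : Set H) : Prop := ∀ s ∈ G, s 0 = 0 → ∀ x ∈ T, s x ∈ T

/-- invariance of a function under the stabiliser of `0`. -/
def SInvFun {R : Type*} (f : H → R) : Prop := ∀ s ∈ G, s 0 = 0 → ∀ x, f (s x) = f x

variable {G}

theorem exists_diff (hT : HasTranslations G) {g : Equiv.Perm H} (hg : g ∈ G) (a : H) :
    ∃ u ∈ G, u 0 = 0 ∧ ∀ x, u x = g (x + a) - g a := by
  refine ⟨(Equiv.addRight (g a))⁻¹ * g * Equiv.addRight a,
    G.mul_mem (G.mul_mem (G.inv_mem (hT _)) hg) (hT _), ?_, ?_⟩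
  · simp [Equiv.Perm.mul_apply, Equiv.Perm.inv_def]
  · intro x
    simp [Equiv.Perm.mul_apply, Equiv.Perm.inv_def, sub_eq_add_neg]

theorem SInv.diff (hT : HasTranslations G) {T : Set H} (h : SInv G T) {g : Equiv.Perm H}
    (hg : g ∈ G) {a b : H} (hab : b - a ∈ T) : g b - g a ∈ T := by
  obtain ⟨u, hu, hu0, hux⟩ := exists_diff hT hg a
  have := h u hu hu0 _ hab
  rwa [hux, sub_add_cancel] at this

theorem SInv.mem_iff {T : Set H} (h : SInv G T) {s : Equiv.Perm H} (hs : s ∈ G) (hs0 : s 0 = 0)
    (x : H) : s x ∈ T ↔ x ∈ T := by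
  refine ⟨fun hx => ?_, h s hs hs0 x⟩
  have h0 : s⁻¹ 0 = 0 := by rw [Equiv.Perm.inv_eq_iff_eq, hs0]
  have := h s⁻¹ (G.inv_mem hs) h0 _ hx
  simpa using this

theorem SInv.diff_iff (hT : HasTranslations G) {T : Set H} (h : SInv G T) {g : Equiv.Perm H}
    (hg : g ∈ G) {a b : H} : g b - g a ∈ T ↔ b - a ∈ T := by
  refine ⟨fun hx => ?_, h.diff hT hg⟩
  have := h.diff hT (G.inv_mem hg) hx
  simpa using this

/-- the orbit of a point under the stabiliser of `0`. -/
def sOrbit (G : Subgroup (Equiv.Perm H)) (x : H) : Set H := {y | ∃ s ∈ G, s 0 = 0 ∧ s x = y}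

theorem sOrbit_inv (x : H) : SInv G (sOrbit G x) := by
  rintro s hs hs0 _ ⟨t, ht, ht0, rfl⟩
  exact ⟨s * t, G.mul_mem hs ht, by simp [ht0, hs0], rfl⟩

theorem mem_sOrbit_self (x : H) : x ∈ sOrbit G x := ⟨1, G.one_mem, rfl, rfl⟩

theorem sOrbit_subset {T : Set H} (h : SInv G T) {x : H} (hx : x ∈ T) : sOrbit G x ⊆ T := by
  rintro _ ⟨s, hs, hs0, rfl⟩
  exact h s hs hs0 x hx

theorem zero_notMem_sOrbit {x : H} (hx : x ≠ 0) : (0 : H) ∉ sOrbit G x := by
  rintro ⟨s, _, hs0, hsx⟩
  apply hx
  apply s.injective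
  rw [hsx, hs0]

theorem sOrbit_eq_of_mem {x y : H} (h : y ∈ sOrbit G x) : sOrbit G y = sOrbit G x := by
  obtain ⟨s, hs, hs0, rfl⟩ := h
  apply Set.Subset.antisymm
  · exact sOrbit_subset (sOrbit_inv x) ⟨s, hs, hs0, rfl⟩
  · apply sOrbit_subset (sOrbit_inv _)
    refine ⟨s⁻¹, G.inv_mem hs, ?_, by simp⟩
    rw [Equiv.Perm.inv_eq_iff_eq, hs0]

/-- The subgroup generated by an invariant set is invariant. -/
theorem SInv.closure (hT : HasTranslations G) {T : Set H} (h : SInv G T) :
    SInv G (AddSubgroup.closure T : Set H) := by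
  have key : ∀ x ∈ AddSubgroup.closure T, sOrbit G x ⊆ (AddSubgroup.closure T : Set H) := by
    intro x hx
    induction hx using AddSubgroup.closure_induction with
    | mem x hx => exact (sOrbit_subset h hx).trans AddSubgroup.subset_closure
    | zero =>
      rintro _ ⟨s, _, hs0, rfl⟩
      rw [hs0]
      exact (AddSubgroup.closure T).zero_mem
    | add x y _ _ hx hy =>
      rintro _ ⟨s, hs, hs0, rfl⟩
      have h1 : s (x + y) - s y ∈ sOrbit G x :=
        (sOrbit_inv x).diff hT hs (by simpa using mem_sOrbit_self x)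
      have h2 : s y ∈ sOrbit G y := ⟨s, hs, hs0, rfl⟩
      have := (AddSubgroup.closure T).add_mem (hx h1) (hy h2)
      simpa using this
    | neg x _ hx =>
      rintro _ ⟨s, hs, hs0, rfl⟩
      have h1 : s 0 - s (-x) ∈ sOrbit G x :=
        (sOrbit_inv x).diff hT hs (by simpa using mem_sOrbit_self x)
      rw [hs0, zero_sub] at h1
      have := (AddSubgroup.closure T).neg_mem (hx h1)
      simpa using this
  intro s hs hs0 x hx
  exact key x hx ⟨s, hs, hs0, rfl⟩

/-- The translation stabiliser of a set. -/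
def tStab (T : Set H) : AddSubgroup H where
  carrier := {h | ∀ c, c - h ∈ T ↔ c ∈ T}
  zero_mem' := by intro c; simp
  add_mem' := by
    intro a b ha hb c
    rw [← hb c, ← ha (c - b)]
    rw [sub_sub, add_comm b a]
  neg_mem' := by
    intro a ha c
    rw [← ha (c - -a)]
    simp

theorem mem_tStab {T : Set H} {h : H} : h ∈ tStab T ↔ ∀ c, c - h ∈ T ↔ c ∈ T := Iff.rfl

theorem SInv.tStab (hT : HasTranslations G) {T : Set H} (h : SInv G T) :
    SInv G (tStab T : Set H) := by
  intro s hs hs0 x hx c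
  have hx' : ∀ c, c - x ∈ T ↔ c ∈ T := hx
  -- write c = s c'
  obtain ⟨c', rfl⟩ := s.surjective c
  rw [h.diff_iff hT hs, hx' c', h.mem_iff hs hs0]

/-- An invariant subgroup is a block. -/
theorem SInv.isBlock (hT : HasTranslations G) {K : AddSubgroup H} (h : SInv G (K : Set H)) :
    IsBlock G (K : Set H) := by
  rw [isBlock_iff_smul_eq_of_nonempty]
  rintro g ⟨x, ⟨y, hy, hyx⟩, hx⟩
  have hyx' : g.1 y = x := hyx
  -- g • K = K
  have hsub : ∀ (g : G) (y : H), y ∈ K → g.1 y ∈ K → ∀ z ∈ K, g.1 z ∈ K := by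
    intro g y hy hgy z hz
    have : g.1 z - g.1 y ∈ (K : Set H) := h.diff hT g.2 (K.sub_mem hz hy)
    have := K.add_mem this hgy
    simpa using this
  apply Set.Subset.antisymm
  · rintro _ ⟨z, hz, rfl⟩
    exact hsub g y hy (by rw [hyx']; exact hx) z hz
  · intro z hz
    refine ⟨g⁻¹.1 z, ?_, ?_⟩
    · apply hsub g⁻¹ x hx _ z hz
      rw [← hyx']
      simpa using hy
    · change g.1 (g⁻¹.1 z) = z
      simp

theorem SInv.eq_bot_or_top (hT : HasTranslations G) (hprim : IsPreprimitive G H)
    {K : AddSubgroup H} (h : SInv G (K : Set H)) : K = ⊥ ∨ K = ⊤ := by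
  rcases hprim.isTrivialBlock_of_isBlock (h.isBlock hT) with h1 | h1
  · left
    rw [eq_bot_iff]
    intro x hx
    rw [AddSubgroup.mem_bot]
    exact h1 hx K.zero_mem
  · right
    rw [eq_top_iff]
    intro x _
    have : x ∈ (K : Set H) := by rw [h1]; trivial
    exact this

section Algebra

variable [Fintype H] {R : Type*} [CommSemiring R]

theorem SInvFun.mul (hT : HasTranslations G) {φ ψ : AddMonoidAlgebra R H}
    (hφ : SInvFun G (fun x => φ.coeff x)) (hψ : SInvFun G (fun x => ψ.coeff x)) :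
    SInvFun G (fun x => (φ * ψ).coeff x) := by
  intro s hs hs0 x
  simp only [AddMonoidAlgebra.coeff_mul_apply_left]
  rw [Finsupp.sum_fintype _ _ (by simp), Finsupp.sum_fintype _ _ (by simp)]
  rw [← Equiv.sum_comp s]
  apply Finset.sum_congr rfl
  intro h _
  have e1 : φ.coeff (s h) = φ.coeff h := hφ s hs hs0 h
  rw [e1]
  congr 1
  obtain ⟨u, hu, hu0, hux⟩ := exists_diff hT hs h
  have e2 := hψ u hu hu0 (-h + x)
  simp only [hux] at e2
  rw [← e2]
  congr 1
  rw [neg_add_cancel_comm, sub_eq_neg_add]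

theorem SInvFun.one [DecidableEq H] : SInvFun G (fun x => (1 : AddMonoidAlgebra R H).coeff x) := by
  intro s hs hs0 x
  simp only [AddMonoidAlgebra.one_def, AddMonoidAlgebra.coeff_single, Finsupp.single_apply]
  have : (0 = s x) ↔ (0 = x) := by
    constructor
    · intro h
      apply s.injective
      rw [hs0, h]
    · intro h
      rw [← h, hs0]
  simp only [this]

theorem SInvFun.pow [DecidableEq H] (hT : HasTranslations G) {φ : AddMonoidAlgebra R H}
    (hφ : SInvFun G (fun x => φ.coeff x)) (k : ℕ) :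
    SInvFun G (fun x => (φ ^ k).coeff x) := by
  induction k with
  | zero => rw [pow_zero]; exact SInvFun.one
  | succ k ih => rw [pow_succ]; exact ih.mul hT hφ

end Algebra

section Frobenius

variable [Fintype H] [DecidableEq H]

/-- Schur's theorem on `p`-th powers: for an invariant set `T` the set of `h` such that the number
of `x ∈ T` with `p • x = h` is prime to `p` is invariant. -/
theorem SInv.powSet (hT : HasTranslations G) (p : ℕ) [Fact p.Prime] {T : Finset H}
    (h : SInv G (T : Set H)) :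
    SInv G {y : H | ¬ p ∣ (T.filter (fun x => p • x = y)).card} := by
  haveI : CharP (AddMonoidAlgebra (ZMod p) H) p :=
    charP_of_injective_algebraMap (R := ZMod p) (FaithfulSMul.algebraMap_injective _ _) p
  set φ : AddMonoidAlgebra (ZMod p) H := ∑ x ∈ T, AddMonoidAlgebra.single x 1 with hφ
  have hφc : ∀ y, φ.coeff y = if y ∈ T then 1 else 0 := by
    intro y
    rw [hφ, AddMonoidAlgebra.coeff_sum, Finsupp.finset_sum_apply]
    simp only [AddMonoidAlgebra.coeff_single, Finsupp.single_apply]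
    rw [Finset.sum_ite_eq']
  have hφinv : SInvFun G (fun x => φ.coeff x) := by
    intro s hs hs0 x
    simp only [hφc]
    have := h.mem_iff hs hs0 x
    simp only [Finset.mem_coe] at this
    simp only [this]
  have hpow : φ ^ p = ∑ x ∈ T, AddMonoidAlgebra.single (p • x) 1 := by
    rw [hφ, sum_pow_char]
    apply Finset.sum_congr rfl
    intro x _
    rw [AddMonoidAlgebra.single_pow, one_pow]
  have hpc : ∀ y, (φ ^ p).coeff y = ((T.filter (fun x => p • x = y)).card : ZMod p) := by
    intro y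
    rw [hpow, AddMonoidAlgebra.coeff_sum, Finsupp.finset_sum_apply]
    simp only [AddMonoidAlgebra.coeff_single, Finsupp.single_apply]
    rw [Finset.card_filter]
    push_cast
    rfl
  have hinv := hφinv.pow hT p
  intro s hs hs0 y hy
  have e := hinv s hs hs0 y
  simp only [hpc] at e
  simp only [Set.mem_ofPred_eq] at hy ⊢
  rw [← ZMod.natCast_eq_zero_iff] at hy ⊢
  rwa [e]

end Frobenius

end Cfsg.Agent.Lib.Helper63
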