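import Cfsg.Agent.Lib.Helper63.SchurRing

set_option autoImplicit false

namespace Cfsg.Agent.Lib.Helper63

open MulAction
open scoped Pointwise

variable {H : Type*} [AddCommGroup H] [Fintype H] [DecidableEq H] {G : Subgroup (Equiv.Perm H)}

theorem nsmul_injective_of_coprime {m : ℕ} (hm : m.Coprime (Fintype.card H)) :
    Function.Injective (fun x : H => m • x) := by
  intro x y hxy
  have h1 : m • (x - y) = 0 := by
    rw [smul_sub]; exact sub_eq_zero.2 hxy
  have h2 : addOrderOf (x - y) ∣ m := addOrderOf_dvd_of_nsmul_eq_zero h1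
  have h3 : addOrderOf (x - y) ∣ Fintype.card H := addOrderOf_dvd_card
  have h4 : addOrderOf (x - y) = 1 := Nat.eq_one_of_dvd_coprimes hm h2 h3
  rw [AddMonoid.addOrderOf_eq_one_iff] at h4
  exact sub_eq_zero.1 h4

theorem SInv.prime_smul (hT : HasTranslations G) (p : ℕ) [Fact p.Prime]
    (hp : p.Coprime (Fintype.card H)) {T : Finset H} (h : SInv G (T : Set H)) :
    SInv G ((T.image (fun x => p • x) : Finset H) : Set H) := by
  have := h.powSet hT p
  convert this using 1
  ext y
  simp only [Finset.coe_image, Set.mem_image, Finset.mem_coe, Set.mem_ofPred_eq]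
  have hinj := nsmul_injective_of_coprime hp
  constructor
  · rintro ⟨x, hx, rfl⟩
    have : T.filter (fun x' => p • x' = p • x) = {x} := by
      ext x'
      simp only [Finset.mem_filter, Finset.mem_singleton]
      constructor
      · rintro ⟨_, h2⟩
        exact hinj h2
      · rintro rfl
        exact ⟨hx, rfl⟩
    rw [this, Finset.card_singleton]
    exact (Fact.out : p.Prime).one_lt.ne' ∘ Nat.dvd_one.1
  · intro hy
    have hne : (T.filter (fun x => p • x = y)).Nonempty := by
      rw [Finset.nonempty_iff_ne_empty]
      intro he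
      rw [he] at hy
      simp at hy
    obtain ⟨x, hx⟩ := hne
    rw [Finset.mem_filter] at hx
    exact ⟨x, hx.1, hx.2⟩

theorem SInv.smul_of_coprime (hT : HasTranslations G) (m : ℕ) :
    m.Coprime (Fintype.card H) → ∀ {T : Finset H}, SInv G (T : Set H) →
    SInv G ((T.image (fun x => m • x) : Finset H) : Set H) := by
  induction m using induction_on_primes with
  | zero =>
    intro hm T _ s _ hs0 x hx
    simp only [zero_smul, Finset.coe_image, Set.mem_image, Finset.mem_coe] at hx ⊢
    obtain ⟨y, hy, rfl⟩ := hx
    exact ⟨y, hy, hs0.symm⟩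
  | one =>
    intro _ T h
    simpa using h
  | prime_mul p a hp ih =>
    intro hm T h
    haveI := Fact.mk hp
    have h1 : a.Coprime (Fintype.card H) := Nat.Coprime.coprime_mul_left hm
    have h2 : p.Coprime (Fintype.card H) := Nat.Coprime.coprime_mul_right hm
    have := (ih h1 h).prime_smul hT p h2
    convert this using 2
    rw [Finset.image_image]
    apply Finset.image_congr
    intro x _
    simp [mul_smul]

/-- Wielandt's theorem (case of a non-`p`-group): a primitive group containing a regular abelian
subgroup `H` with a non-trivial cyclic Sylow `p`-subgroup, `H` not a `p`-group,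
is doubly transitive. -/
theorem schur_wielandt (hT : HasTranslations G) (hprim : IsPreprimitive G H) (p : ℕ)
    [Fact p.Prime] (hP1 : (Finset.univ.filter (fun x : H => p • x = 0)).card ≤ p)
    (z₀ : H) (hz₀ : z₀ ≠ 0) (hpz₀ : p • z₀ = 0) (q₀ : H) (hq₀ : q₀ ≠ 0)
    (hq : (addOrderOf q₀).Coprime p) :
    ∀ x y : H, x ≠ 0 → y ≠ 0 → ∃ s ∈ G, s 0 = 0 ∧ s x = y := by
  classical
  have hp : p.Prime := Fact.out
  set P1 : Finset H := Finset.univ.filter (fun x : H => p • x = 0) with hP1def
  -- Claim A
  have claimA : ∀ T : Finset H, SInv G (T : Set H) → ∀ x ∈ T, p • x ≠ 0 → ∀ w, p • w = 0 →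
      x + w ∈ T := by
    intro T hTinv x hx hpx w hw
    have hinv := hTinv.powSet hT p
    have hK := (hinv.closure hT).eq_bot_or_top hT hprim
    have hle : AddSubgroup.closure {y : H | ¬ p ∣ (T.filter (fun x => p • x = y)).card} ≤
        (nsmulAddMonoidHom (α := H) p).range := by
      rw [AddSubgroup.closure_le]
      intro y hy
      simp only [Set.mem_ofPred_eq] at hy
      have hne : (T.filter (fun x => p • x = y)).Nonempty := by
        rw [Finset.nonempty_iff_ne_empty]
        intro he
        rw [he] at hy
        simp at hy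
      obtain ⟨x', hx'⟩ := hne
      rw [Finset.mem_filter] at hx'
      exact ⟨x', hx'.2⟩
    have hne_top : (nsmulAddMonoidHom (α := H) p).range ≠ ⊤ := by
      intro htop
      rw [AddMonoidHom.range_eq_top] at htop
      have hinj := Finite.injective_iff_surjective.2 htop
      apply hz₀
      apply hinj
      simp [hpz₀]
    have hbot : AddSubgroup.closure {y : H | ¬ p ∣ (T.filter (fun x => p • x = y)).card} = ⊥ := by
      rcases hK with h | h
      · exact h
      · exfalso
        apply hne_top
        rw [eq_top_iff, ← h]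
        exact hle
    have hdvd : p ∣ (T.filter (fun x' => p • x' = p • x)).card := by
      by_contra hcon
      have : p • x ∈ AddSubgroup.closure
          {y : H | ¬ p ∣ (T.filter (fun x => p • x = y)).card} :=
        AddSubgroup.subset_closure hcon
      rw [hbot, AddSubgroup.mem_bot] at this
      exact hpx this
    have hsub : T.filter (fun x' => p • x' = p • x) ⊆ P1.image (fun w => x + w) := by
      intro x' hx'
      rw [Finset.mem_filter] at hx'
      rw [Finset.mem_image]
      refine ⟨x' - x, ?_, by abel⟩
      rw [hP1def, Finset.mem_filter]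
      refine ⟨Finset.mem_univ _, ?_⟩
      rw [smul_sub, hx'.2, sub_self]
    have hpos : 0 < (T.filter (fun x' => p • x' = p • x)).card :=
      Finset.card_pos.2 ⟨x, Finset.mem_filter.2 ⟨hx, rfl⟩⟩
    have hge : p ≤ (T.filter (fun x' => p • x' = p • x)).card := Nat.le_of_dvd hpos hdvd
    have heq : T.filter (fun x' => p • x' = p • x) = P1.image (fun w => x + w) := by
      apply Finset.eq_of_subset_of_card_le hsub
      exact (Finset.card_image_le.trans hP1).trans hge
    have : x + w ∈ P1.image (fun w => x + w) := by
      apply Finset.mem_image_of_mem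
      rw [hP1def, Finset.mem_filter]
      exact ⟨Finset.mem_univ _, hw⟩
    rw [← heq, Finset.mem_filter] at this
    exact this.1
  -- Claim B
  have claimB : ∀ x : H, x ≠ 0 → ∃ z ∈ sOrbit G x, p • z = 0 := by
    intro x hx
    by_contra hcon
    push Not at hcon
    set T : Finset H := (sOrbit G x).toFinset with hTdef
    have hTinv : SInv G (T : Set H) := by
      rw [hTdef, Set.coe_toFinset]
      exact sOrbit_inv x
    have hmem : ∀ y, y ∈ T ↔ y ∈ sOrbit G x := by
      intro y; rw [hTdef, Set.mem_toFinset]
    have hstab : z₀ ∈ tStab (T : Set H) := by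
      rw [mem_tStab]
      intro c
      constructor
      · intro hc
        have := claimA T hTinv _ hc (hcon _ ((hmem _).1 hc)) z₀ hpz₀
        simpa using this
      · intro hc
        have := claimA T hTinv _ hc (hcon _ ((hmem _).1 hc)) (-z₀) (by simp [hpz₀])
        simpa [sub_eq_add_neg] using this
    have htop : tStab (T : Set H) = ⊤ := by
      rcases (hTinv.tStab hT).eq_bot_or_top hT hprim with h | h
      · rw [h, AddSubgroup.mem_bot] at hstab
        exact absurd hstab hz₀
      · exact h
    have hx' : x ∈ tStab (T : Set H) := by rw [htop]; trivial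
    rw [mem_tStab] at hx'
    have h0 := (hx' x).2 ((hmem x).2 (mem_sOrbit_self x))
    rw [sub_self] at h0
    exact zero_notMem_sOrbit hx ((hmem 0).1 h0)
  -- Claim C
  have claimC : ∀ w : H, w ≠ 0 → p • w = 0 → w ∈ sOrbit G q₀ := by
    intro w hw hpw
    obtain ⟨z, hz, hpz⟩ := claimB q₀ hq₀
    have hz0 : z ≠ 0 := by
      rintro rfl
      exact zero_notMem_sOrbit hq₀ hz
    have hord : addOrderOf z = p := addOrderOf_eq_prime hpz hz0
    -- `w = j • z`
    have himg : (Finset.range p).image (fun j => j • z) = P1 := by
      apply Finset.eq_of_subset_of_card_le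
      · intro y hy
        rw [Finset.mem_image] at hy
        obtain ⟨j, _, rfl⟩ := hy
        rw [hP1def, Finset.mem_filter]
        refine ⟨Finset.mem_univ _, ?_⟩
        rw [smul_comm, hpz, smul_zero]
      · rw [Finset.card_image_of_injOn, Finset.card_range]
        · exact hP1
        · intro i hi j hj hij
          simp only [Finset.coe_range, Set.mem_Iio] at hi hj
          have := (nsmul_injOn_Iio_addOrderOf (x := z))
          rw [hord] at this
          exact this hi hj hij
    have hwP : w ∈ P1 := by
      rw [hP1def, Finset.mem_filter]; exact ⟨Finset.mem_univ _, hpw⟩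
    rw [← himg, Finset.mem_image] at hwP
    obtain ⟨j, hj, rfl⟩ := hwP
    rw [Finset.mem_range] at hj
    have hj0 : j ≠ 0 := by
      rintro rfl
      simp at hw
    -- the multiplier
    set n := Fintype.card H with hn
    have hnpos : n ≠ 0 := Fintype.card_ne_zero
    set a := n.factorization p with ha
    set n' := n / p ^ a with hn'
    have hnn' : p ^ a * n' = n := Nat.ordProj_mul_ordCompl_eq_self n p
    have hcop : n'.Coprime p := by
      have := Nat.coprime_ordCompl hp hnpos
      exact this.symm
    let m := (Nat.chineseRemainder hcop 1 j : ℕ)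
    have hm1 : m ≡ 1 [MOD n'] := (Nat.chineseRemainder hcop 1 j).2.1
    have hm2 : m ≡ j [MOD p] := (Nat.chineseRemainder hcop 1 j).2.2
    have hmp : m.Coprime p := by
      rw [Nat.coprime_comm, Nat.Prime.coprime_iff_not_dvd hp]
      intro hd
      have : p ∣ j := (hm2.dvd_iff (dvd_refl p)).1 hd
      exact absurd (Nat.le_of_dvd (Nat.pos_of_ne_zero hj0) this) (by omega)
    have hmn' : m.Coprime n' := by
      have : Nat.gcd m n' = Nat.gcd 1 n' := hm1.gcd_eq
      rw [Nat.Coprime, this]; simp
    have hmn : m.Coprime n := by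
      rw [← hnn']
      exact Nat.Coprime.mul_right (Nat.Coprime.pow_right a hmp) hmn'
    have hqn' : addOrderOf q₀ ∣ n' := by
      have h1 : addOrderOf q₀ ∣ p ^ a * n' := by rw [hnn']; exact addOrderOf_dvd_card
      exact (Nat.Coprime.pow_right a hq).dvd_of_dvd_mul_left h1
    have hmq : m • q₀ = q₀ := by
      have h1 : m ≡ 1 [MOD addOrderOf q₀] := hm1.of_dvd hqn'
      have := (nsmul_eq_nsmul_iff_modEq (x := q₀)).2 h1
      simpa using this
    have hmz : m • z = j • z := by
      apply (nsmul_eq_nsmul_iff_modEq (x := z)).2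
      rw [hord]; exact hm2
    set T : Finset H := (sOrbit G q₀).toFinset with hTdef
    have hTinv : SInv G (T : Set H) := by
      rw [hTdef, Set.coe_toFinset]
      exact sOrbit_inv q₀
    have hmem : ∀ y, y ∈ T ↔ y ∈ sOrbit G q₀ := by
      intro y; rw [hTdef, Set.mem_toFinset]
    have hmT := hTinv.smul_of_coprime hT m hmn
    have hsub : T ⊆ T.image (fun x => m • x) := by
      intro y hy
      have h1 : q₀ ∈ ((T.image (fun x => m • x) : Finset H) : Set H) := by
        rw [Finset.mem_coe, Finset.mem_image]
        exact ⟨q₀, (hmem _).2 (mem_sOrbit_self _), hmq⟩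
      exact sOrbit_subset hmT h1 ((hmem y).1 hy)
    have heq : T = T.image (fun x => m • x) :=
      Finset.eq_of_subset_of_card_le hsub Finset.card_image_le
    rw [← hmz, ← hmem, heq]
    exact Finset.mem_image_of_mem _ ((hmem z).2 hz)
  -- conclusion
  have claimD : ∀ x : H, x ≠ 0 → sOrbit G x = sOrbit G q₀ := by
    intro x hx
    obtain ⟨z, hz, hpz⟩ := claimB x hx
    have hz0 : z ≠ 0 := by
      rintro rfl
      exact zero_notMem_sOrbit hx hz
    rw [← sOrbit_eq_of_mem hz, sOrbit_eq_of_mem (claimC z hz0 hpz)]
  intro x y hx hy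
  have : y ∈ sOrbit G x := by
    rw [claimD x hx, ← claimD y hy]
    exact mem_sOrbit_self y
  exact this

end Cfsg.Agent.Lib.Helper63
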