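import Cfsg.Agent.Lib.Helper63.SchurRing2

set_option autoImplicit false

namespace Cfsg.Agent.Lib.Helper63

open MulAction

section Transport

variable (G : Type*) {Ω X : Type*} [Group G] [MulAction G Ω]

/-- The permutation group induced by `G` on `X` through a bijection `e : X ≃ Ω`. -/
def transport (e : X ≃ Ω) : Subgroup (Equiv.Perm X) :=
  (MulAction.toPermHom G Ω).range.map e.symm.permCongrHom.toMonoidHom

variable {G}

theorem mem_transport {e : X ≃ Ω} {σ : Equiv.Perm X} :
    σ ∈ transport G e ↔ ∃ g : G, ∀ x, σ x = e.symm (g • e x) := by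
  constructor
  · rintro ⟨_, ⟨g, rfl⟩, rfl⟩
    exact ⟨g, fun x => rfl⟩
  · rintro ⟨g, hg⟩
    refine ⟨_, ⟨g, rfl⟩, ?_⟩
    ext x
    rw [hg x]
    rfl

theorem transport_isPreprimitive (e : X ≃ Ω) (h : IsPreprimitive G Ω) :
    IsPreprimitive (transport G e) X := by
  let φ : G → transport G e := fun g =>
    ⟨e.symm.permCongrHom (MulAction.toPermHom G Ω g), ⟨_, ⟨g, rfl⟩, rfl⟩⟩
  let ff : Ω →ₑ[φ] X :=
    { toFun := e.symm
      map_smul' := by
        intro g x
        change e.symm (g • x) = e.symm (g • e (e.symm x))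
        simp }
  exact IsPreprimitive.of_surjective (f := ff) e.symm.surjective

/-- double transitivity from transitivity of a point stabiliser in the transported group -/
theorem two_pretransitive_of_transport (e : X ≃ Ω) (x₀ : X) (htr : IsPretransitive G Ω)
    (h : ∀ x y : X, x ≠ x₀ → y ≠ x₀ → ∃ s ∈ transport G e, s x₀ = x₀ ∧ s x = y) :
    IsMultiplyPretransitive G Ω 2 := by
  rw [is_two_pretransitive_iff]
  intro a b c d hab hcd
  obtain ⟨g₁, hg₁⟩ := htr.exists_smul_eq a (e x₀)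
  obtain ⟨g₂, hg₂⟩ := htr.exists_smul_eq c (e x₀)
  have h1 : e.symm (g₁ • b) ≠ x₀ := by
    intro hc
    apply hab
    have : g₁ • b = e x₀ := by rw [← hc]; simp
    rw [← hg₁] at this
    exact (smul_left_cancel g₁ this).symm
  have h2 : e.symm (g₂ • d) ≠ x₀ := by
    intro hc
    apply hcd
    have : g₂ • d = e x₀ := by rw [← hc]; simp
    rw [← hg₂] at this
    exact (smul_left_cancel g₂ this).symm
  obtain ⟨s, hs, hs0, hsx⟩ := h _ _ h1 h2
  obtain ⟨g, hg⟩ := mem_transport.1 hs
  refine ⟨g₂⁻¹ * g * g₁, ?_, ?_⟩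
  · rw [mul_smul, mul_smul, hg₁, inv_smul_eq_iff, hg₂]
    have := hg x₀
    rw [hs0] at this
    rw [Equiv.eq_symm_apply] at this
    exact this.symm
  · rw [mul_smul, mul_smul, inv_smul_eq_iff]
    have := hg (e.symm (g₁ • b))
    rw [hsx] at this
    simpa using this.symm

end Transport

/-- A regular cyclic subgroup identifies the set acted on with `ZMod N`, the cyclic subgroup
acting by translations. -/
theorem exists_zmod_model {G Ω : Type*} [Group G] [MulAction G Ω] [Finite Ω] [Nonempty Ω]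
    (C : Subgroup G) (hcyc : IsCyclic ↥C)
    (hC : IsPretransitive ↥C Ω ∧ ∀ a : Ω, stabilizer ↥C a = ⊥) :
    ∃ (N : ℕ) (_ : NeZero N) (e : ZMod N ≃ Ω), N = Nat.card Ω ∧
      ∀ a : ZMod N, ∃ c ∈ C, ∀ x, c • e x = e (x + a) := by
  obtain ⟨ω₀⟩ := ‹Nonempty Ω›
  have hbij : Function.Bijective (fun c : C => c • ω₀) := by
    constructor
    · intro c c' h
      have h' : c • ω₀ = c' • ω₀ := h
      have : c'⁻¹ * c ∈ stabilizer ↥C ω₀ := by
        rw [mem_stabilizer_iff, mul_smul, h', inv_smul_smul]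
      rw [hC.2, Subgroup.mem_bot] at this
      exact (inv_mul_eq_one.1 this).symm
    · intro ω
      exact hC.1.exists_smul_eq ω₀ ω
  let β : C ≃ Ω := Equiv.ofBijective _ hbij
  have hcard : Nat.card C = Nat.card Ω := Nat.card_congr β
  have hfin : Finite C := Finite.of_equiv _ β.symm
  have hne : NeZero (Nat.card C) := ⟨Nat.card_pos.ne'⟩
  let ε := zmodCyclicMulEquiv hcyc
  let e : ZMod (Nat.card C) ≃ Ω := (Multiplicative.ofAdd.trans ε.toEquiv).trans β
  refine ⟨Nat.card C, hne, e, hcard, ?_⟩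
  intro a
  refine ⟨(ε (Multiplicative.ofAdd a) : C), (ε (Multiplicative.ofAdd a)).2, ?_⟩
  intro x
  change (ε (Multiplicative.ofAdd a) : G) • ((ε (Multiplicative.ofAdd x) : C) • ω₀) =
    (ε (Multiplicative.ofAdd (x + a)) : C) • ω₀
  rw [add_comm, ofAdd_add, map_mul, mul_smul]
  rfl

theorem transport_hasTranslations {G Ω : Type*} [Group G] [MulAction G Ω] {N : ℕ}
    (e : ZMod N ≃ Ω) (C : Subgroup G) (h : ∀ a : ZMod N, ∃ c ∈ C, ∀ x, c • e x = e (x + a)) :
    HasTranslations (transport G e) := by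
  intro a
  obtain ⟨c, _, hc⟩ := h a
  rw [mem_transport]
  refine ⟨c, fun x => ?_⟩
  rw [hc x]
  simp

end Cfsg.Agent.Lib.Helper63
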